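import Cfsg.Agent.H22.FocalTransfer
import Cfsg.Agent.H19.Basic
import Cfsg.Agent.H32.Basic
import Cfsg.Agent.H33.Nilpotent

/-! Hall subgroups whose focal series reaches the identity have a normal complement. -/

open scoped Pointwise commutatorElement

namespace Cfsg.Agent.H33

universe u

variable {G : Type*} [Group G]

/-- A normal subgroup of order prime to its index contains every subgroup of order prime to that
index. -/
theorem le_of_coprime_index [Finite G] (N : Subgroup G) [N.Normal] (X : Subgroup G)
    (h : (Nat.card X).Coprime N.index) : X ≤ N := by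
  rw [← QuotientGroup.ker_mk' N, ← Subgroup.map_eq_bot_iff, ← Subgroup.card_eq_one]
  refine Nat.eq_one_of_dvd_coprimes h ?_ ?_
  · exact Subgroup.card_map_dvd X (QuotientGroup.mk' N)
  · rw [Subgroup.index_eq_card]; exact Subgroup.card_subgroup_dvd_card _

/-- A normal Hall subgroup is characteristic. -/
theorem characteristic_of_normal_hall [Finite G] (N : Subgroup G) [N.Normal]
    (h : (Nat.card N).Coprime N.index) : N.Characteristic := by
  rw [Subgroup.characteristic_iff_map_le]
  intro φ
  refine le_of_coprime_index N _ ?_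
  rwa [← Nat.card_congr (Subgroup.equivMapOfInjective N φ.toMonoidHom φ.injective).toEquiv]

/-- Focal subgroups in a subgroup are smaller. -/
theorem map_focalSubgroup_le {K : Subgroup G} {X : Subgroup K} {Y : Subgroup G}
    (h : X.map K.subtype ≤ Y) :
    (Subgroup.focalSubgroup X).map K.subtype ≤ Subgroup.focalSubgroup Y := by
  rw [Subgroup.focalSubgroup_def, Subgroup.focalSubgroup_def, MonoidHom.map_closure]
  refine Subgroup.closure_mono ?_
  rintro _ ⟨g, ⟨hg, x, hx, u, rfl⟩, rfl⟩
  exact ⟨h (Subgroup.mem_map_of_mem _ hg), _, h (Subgroup.mem_map_of_mem _ hx), _,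
    map_commutatorElement _ _ _⟩

/-- D. G. Higman: a Hall subgroup whose focal series reaches `1` has a normal complement. -/
theorem exists_normal_complement_of_focal_series (n : ℕ) : ∀ {G : Type u} [Group G] [Finite G]
    (H : Subgroup G), (Nat.card H).Coprime H.index →
    (fun K : Subgroup G => Subgroup.focalSubgroup K)^[n] H = ⊥ →
    ∃ N : Subgroup G, N.Normal ∧ Subgroup.IsComplement' N H := by
  induction n with
  | zero =>
    intro G _ _ H _ hfoc
    rw [Function.iterate_zero, id_eq] at hfoc
    subst hfoc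
    exact ⟨⊤, inferInstance, Subgroup.isComplement'_top_bot⟩
  | succ n ih =>
    intro G _ _ H hHall hfoc
    rw [Function.iterate_succ, Function.comp_apply] at hfoc
    set F := Subgroup.focalSubgroup H
    have hrel : Nat.Coprime H.index (⁅H, H⁆.relIndex H) :=
      hHall.symm.coprime_dvd_right (Subgroup.relIndex_dvd_card _ _)
    set K := (H.transferFocal).ker
    haveI hKn : K.Normal := MonoidHom.normal_ker _
    have hinf : K ⊓ H = F := H22.ker_transferFocal_inf H hrel
    have hsup : K ⊔ H = ⊤ := H22.ker_transferFocal_sup H hrel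
    have hFK : F ≤ K := hinf ▸ inf_le_left
    have hidx : (F.subgroupOf K).index = H.index := by
      have h1 : (H.subgroupOf K).index = F.relIndex K := by
        rw [← hinf]; exact (Subgroup.inf_relIndex_left K H).symm
      rw [show (F.subgroupOf K).index = F.relIndex K from rfl, ← h1]
      change H.relIndex K = _
      rw [← H32.relIndex_sup_eq, sup_comm, hsup, Subgroup.relIndex_top_right]
    have hcard : Nat.card (F.subgroupOf K) = Nat.card F :=
      Nat.card_congr (Subgroup.subgroupOfEquivOfLe hFK).toEquiv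
    have hHallF : (Nat.card (F.subgroupOf K)).Coprime (F.subgroupOf K).index := by
      rw [hidx, hcard]
      exact hHall.coprime_dvd_left (Subgroup.card_dvd_of_le (Subgroup.focalSubgroup_le H))
    have hmono : ∀ m, ((fun X : Subgroup K => Subgroup.focalSubgroup X)^[m] (F.subgroupOf K)).map
        K.subtype ≤ (fun X : Subgroup G => Subgroup.focalSubgroup X)^[m] F := by
      intro m
      induction m with
      | zero => exact (Subgroup.map_subgroupOf_eq_of_le hFK).le
      | succ m ihm =>
        rw [Function.iterate_succ', Function.iterate_succ']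
        exact map_focalSubgroup_le ihm
    have hK0 : (fun X : Subgroup K => Subgroup.focalSubgroup X)^[n] (F.subgroupOf K) = ⊥ := by
      have := (hmono n).trans hfoc.le
      rwa [le_bot_iff, Subgroup.map_eq_bot_iff_of_injective _ K.subtype_injective] at this
    obtain ⟨N, hNn, hN⟩ := ih (F.subgroupOf K) hHallF hK0
    have hNcard : Nat.card N = H.index := by rw [← hN.index_eq_card, hidx]
    haveI : N.Characteristic := by
      refine characteristic_of_normal_hall N ?_
      rw [hN.symm.index_eq_card, ← hN.index_eq_card]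
      exact hHallF.symm
    refine ⟨N.map K.subtype, ConjAct.normal_of_characteristic_of_normal, ?_⟩
    refine Subgroup.isComplement'_of_card_mul_and_disjoint ?_ (disjoint_iff.2 (le_bot_iff.1 ?_))
    · rw [Subgroup.card_subtype, hNcard, Subgroup.index_mul_card]
    · rintro _ ⟨⟨x, hx, rfl⟩, hxH⟩
      have hxF : x ∈ F.subgroupOf K := hinf.le ⟨x.2, hxH⟩
      have : x = 1 := Subgroup.mem_bot.1 (hN.disjoint.le_bot ⟨hx, hxF⟩)
      simp [this]

/-- If conjugation of elements of the subgroup `X` inside `H` is induced by `H`, element by element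
on prime-power parts, the focal subgroup of `X` lies in `[X, H]`. -/
theorem focalSubgroup_le_of_parts [Finite G] {H X : Subgroup G} (hX : X ≤ H)
    (hXn : H ≤ Subgroup.normalizer (X : Set G))
    (hc : ∀ x ∈ H, ∀ q k : ℕ, q.Prime → orderOf x = q ^ k → ∀ g : G, g * x * g⁻¹ ∈ H →
      ∃ h ∈ H, h * x * h⁻¹ = g * x * g⁻¹) :
    Subgroup.focalSubgroup X ≤ ⁅X, H⁆ := by
  have hX' : H ≤ Subgroup.normalizer (⁅X, H⁆ : Subgroup G) :=
    Subgroup.normalizer_commutator_ge_right _ _
  have key : ∀ (m : ℕ) (x : G), orderOf x = m → x ∈ X → ∀ g : G, g * x * g⁻¹ ∈ X →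
      g * x * g⁻¹ * x⁻¹ ∈ ⁅X, H⁆ := by
    intro m
    induction m using Nat.strong_induction_on with
    | _ m ih =>
      intro x hm hx g hg
      by_cases h1 : x = 1
      · subst h1; simp
      have hp : (orderOf x).minFac.Prime :=
        Nat.minFac_prime (fun e => h1 (orderOf_eq_one_iff.1 e))
      obtain ⟨y, z, hy, hz, e, ⟨k, hk⟩, hcop⟩ :=
        H86.exists_pPart_mul_pPrimePart x (isOfFinOrder_of_finite x) hp
      have hyX : y ∈ X := Subgroup.zpowers_le.2 hx hy
      have hzX : z ∈ X := Subgroup.zpowers_le.2 hx hz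
      have hconj : ∀ w ∈ Subgroup.zpowers x, g * w * g⁻¹ ∈ X := by
        rintro w ⟨i, rfl⟩
        simpa using X.zpow_mem hg i
      have hy' : g * y * g⁻¹ * y⁻¹ ∈ ⁅X, H⁆ := by
        obtain ⟨h, hh, he⟩ := hc y (hX hyX) _ k hp hk g (hX (hconj y hy))
        rw [← he, Subgroup.commutator_comm]
        exact Subgroup.commutator_mem_commutator hh hyX
      have hlt : orderOf z < m := by
        rw [← hm]
        refine lt_of_le_of_ne (Nat.le_of_dvd (orderOf_pos x) (orderOf_dvd_of_mem_zpowers hz))
          fun e' => ?_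
        rw [e'] at hcop
        exact hp.not_dvd_one ((Nat.Coprime.eq_one_of_dvd hcop.symm (Nat.minFac_dvd _)) ▸ dvd_refl _)
      have hz' := ih _ hlt z rfl hzX g (hconj z hz)
      rw [← e, show g * (y * z) * g⁻¹ * (y * z)⁻¹ =
        (g * y * g⁻¹) * (g * z * g⁻¹ * z⁻¹) * (g * y * g⁻¹)⁻¹ * (g * y * g⁻¹ * y⁻¹) by group]
      exact mul_mem ((Subgroup.mem_normalizer_iff.1 (hX' (hX (hconj y hy))) _).1 hz') hy'
  rw [Subgroup.focalSubgroup_def, Subgroup.closure_le]
  rintro _ ⟨hg, x, hx, u, rfl⟩
  -- `⁅x, u⁆ = x (u x⁻¹ u⁻¹)`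
  have hu : u * x⁻¹ * u⁻¹ ∈ X := by
    have := X.mul_mem (X.inv_mem hx) hg
    simpa [commutatorElement_def, mul_assoc] using this
  have h := key _ x⁻¹ rfl (X.inv_mem hx) u hu
  rw [inv_inv] at h
  have := (Subgroup.mem_normalizer_iff.1 (hX' (hX hx)) _).1 h
  simpa [commutatorElement_def, mul_assoc] using this

/-- A nilpotent Hall subgroup controlling fusion of its prime-power elements has a normal
complement. -/
theorem exists_normal_complement_of_parts {G : Type u} [Group G] [Finite G] (H : Subgroup G)
    [Group.IsNilpotent H] (hHall : (Nat.card H).Coprime H.index)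
    (hc : ∀ x ∈ H, ∀ q k : ℕ, q.Prime → orderOf x = q ^ k → ∀ g : G, g * x * g⁻¹ ∈ H →
      ∃ h ∈ H, h * x * h⁻¹ = g * x * g⁻¹) :
    ∃ N : Subgroup G, N.Normal ∧ Subgroup.IsComplement' N H := by
  obtain ⟨n, hn⟩ := (Subgroup.isNilpotent_iff_lowerCentralSeries H).1 inferInstance
  refine exists_normal_complement_of_focal_series n H hHall (le_bot_iff.1 (le_trans ?_ hn.le))
  clear hn
  induction n with
  | zero => exact le_rfl
  | succ n ih =>
    rw [Function.iterate_succ', Function.comp_apply, Subgroup.lowerCentralSeries_succ]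
    refine le_trans ?_ (focalSubgroup_le_of_parts (H := H) (H.lowerCentralSeries_le_self n)
      (Subgroup.self_le_normalizer_lowerCentralSeries _ n) hc)
    rw [Subgroup.focalSubgroup_def, Subgroup.focalSubgroup_def]
    refine Subgroup.closure_mono ?_
    rintro g ⟨hg, x, hx, u, rfl⟩
    exact ⟨ih hg, x, ih hx, u, rfl⟩

/-- A nilpotent subgroup of order prime to its index controls fusion as soon as, for each prime
power element, some `Sylow` normaliser of another prime lies inside it. -/
theorem exists_conj_mem_of_centralizer {G : Type u} [Group G] [Finite G] {q : ℕ} [Fact q.Prime]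
    (Q : Sylow q G) {x g : G} (hx : ∀ a ∈ (Q : Subgroup G), a * x = x * a)
    (hy : ∀ a ∈ (Q : Subgroup G), a * (g * x * g⁻¹) = g * x * g⁻¹ * a) :
    ∃ n ∈ Subgroup.normalizer (Q : Set G), n * x * n⁻¹ = g * x * g⁻¹ := by
  have h1 : x ∈ Subgroup.centralizer (Q : Set G) := Subgroup.mem_centralizer_iff.2 hx
  have h2 : g⁻¹⁻¹ * x * g⁻¹ ∈ Subgroup.centralizer (Q : Set G) := by
    rw [inv_inv]; exact Subgroup.mem_centralizer_iff.2 hy
  obtain ⟨n, hn, he⟩ := Q.conj_eq_normalizer_conj_of_mem_centralizer x g⁻¹ h1 h2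
  rw [inv_inv] at he
  exact ⟨n⁻¹, inv_mem hn, by rw [inv_inv]; exact he.symm⟩

end Cfsg.Agent.H33
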