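import Mathlib.GroupTheory.Sylow
import Mathlib.GroupTheory.Nilpotent
import Mathlib.Algebra.CharP.Lemmas
import Mathlib.Algebra.Polynomial.AlgebraMap
import Cfsg.Agent.H19.Basic
import Cfsg.Agent.H19.Cores
import Cfsg.Agent.H32.Basic

/-! High powers of fixed points of a Sylow subgroup acting with small class on an abelian group. -/

open scoped commutatorElement

namespace Cfsg.Agent.H33

/-- A unipotent unit of order `p` with `(x - 1) ^ (n (p - 1) + 1) = 0` fixes all `p ^ n`-multiples. -/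
theorem natCast_pow_mul_eq_zero_of_unipotent {E : Type*} [Ring E] {p : ℕ} [hp : Fact p.Prime]
    (t : E) (n : ℕ) (hu : (1 + t) ^ p = 1) (ht : t ^ (n * (p - 1) + 1) = 0) :
    (p : E) ^ n * t = 0 := by
  let r : Polynomial ℤ := ∑ k ∈ Finset.Ioo 0 p,
    Polynomial.X ^ (k - 1) * (1 : Polynomial ℤ) ^ (p - k - 1) * ((p.choose k / p : ℕ) : Polynomial ℤ)
  obtain ⟨q, hq⟩ : ∃ q : Polynomial ℤ, r = 1 + Polynomial.X * q := by
    refine ⟨∑ k ∈ Finset.Ioo 1 p,
      Polynomial.X ^ (k - 2) * ((p.choose k / p : ℕ) : Polynomial ℤ), ?_⟩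
    have hsplit : Finset.Ioo 0 p = insert 1 (Finset.Ioo 1 p) := by
      ext k
      simp only [Finset.mem_Ioo, Finset.mem_insert]
      have := hp.out.two_le
      omega
    simp only [r, one_pow, mul_one]
    rw [hsplit, Finset.sum_insert (by simp), Finset.mul_sum]
    congr 1
    · simp [Nat.choose_one_right, Nat.div_self hp.out.pos]
    · refine Finset.sum_congr rfl fun k hk => ?_
      rw [← mul_assoc, ← pow_succ', show k - 2 + 1 = k - 1 by
        have := (Finset.mem_Ioo.1 hk).1; omega]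
  let ψ : Polynomial ℤ →ₐ[ℤ] E := Polynomial.aeval t
  have hX : ψ Polynomial.X = t := Polynomial.aeval_X t
  set v := ψ r with hv
  have hrel : t ^ p = -((p : E) * t * v) := by
    have h1 := congrArg ψ (add_pow_prime_eq hp.out Polynomial.X (1 : Polynomial ℤ))
    simp only [map_add, map_pow, map_one, map_mul, map_natCast, one_pow, mul_one, hX] at h1
    rw [add_comm t 1, hu] at h1
    have hr : v = ψ (∑ x ∈ Finset.Ioo 0 p,
        Polynomial.X ^ (x - 1) * ((p.choose x / p : ℕ) : Polynomial ℤ)) := by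
      rw [hv]; simp only [r, one_pow, mul_one]
    rw [← hr] at h1
    have h2 : t ^ p + (p : E) * t * v = 0 := by
      have h3 : (1 : E) + 0 = 1 + (t ^ p + (p : E) * t * v) := by
        rw [add_zero]
        calc (1 : E) = t ^ p + 1 + (p : E) * t * v := h1
          _ = _ := by abel
      exact (add_left_cancel h3).symm
    exact eq_neg_of_add_eq_zero_left h2
  have hunit : IsUnit v := by
    rw [hv, hq, map_add, map_one, map_mul, hX]
    refine IsNilpotent.isUnit_one_add ⟨n * (p - 1) + 1, ?_⟩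
    rw [← hX, ← map_mul, ← map_pow, mul_pow, map_mul, map_pow, hX, ht, zero_mul]
  have hcomm : Commute v t := by
    rw [hv, ← hX]
    exact (Commute.all _ _).map ψ
  have key : ∀ j, t ^ (j * (p - 1) + 1) = (-((p : E) * v)) ^ j * t := by
    intro j
    induction j with
    | zero => simp
    | succ j ih =>
      have hp2 := hp.out.two_le
      rw [show (j + 1) * (p - 1) + 1 = j * (p - 1) + 1 + (p - 1) by ring, pow_add, ih, mul_assoc,
        ← pow_succ', Nat.sub_add_cancel hp.out.one_le, hrel, pow_succ _ j, mul_assoc _ _ t,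
        neg_mul, mul_assoc (p : E) t v, mul_assoc (p : E) v t, hcomm.eq]
  rw [key, neg_pow, (Nat.cast_commute p v).mul_pow, ← mul_assoc ((-1 : E) ^ n)] at ht
  have h1 : ((-1 : E) ^ n * (p : E) ^ n) * v ^ n * t = ((-1 : E) ^ n * v ^ n) * ((p : E) ^ n * t) := by
    rw [mul_assoc ((-1 : E) ^ n) ((p : E) ^ n), ((Nat.cast_commute p v).pow_pow n n).eq,
      ← mul_assoc, mul_assoc]
  rw [h1] at ht
  exact ((((isUnit_one.neg).pow n).mul (hunit.pow n)).mul_right_eq_zero).1 ht

variable {G V : Type*} [Group G] [Group V]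

/-- The elements fixing every element of a set under an action by automorphisms. -/
def fixer (φ : G →* MulAut V) (s : Set V) : Subgroup G where
  carrier := {g | ∀ v ∈ s, φ g v = v}
  one_mem' := fun v _ => by rw [map_one]; rfl
  mul_mem' := fun {a b} ha hb v hv => by rw [map_mul, MulAut.mul_apply, hb v hv, ha v hv]
  inv_mem' := fun {a} ha v hv => by
    conv_lhs => rw [← ha v hv]
    rw [map_inv, MulAut.inv_apply_self]

theorem mem_fixer {φ : G →* MulAut V} {s : Set V} {g : G} :
    g ∈ fixer φ s ↔ ∀ v ∈ s, φ g v = v := Iff.rfl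

/-- The fixer of an invariant set is normal. -/
theorem fixer_normal (φ : G →* MulAut V) (s : Set V) (hs : ∀ g, ∀ v ∈ s, φ g v ∈ s) :
    (fixer φ s).Normal :=
  ⟨fun k hk g v hv => by
    rw [map_mul, map_mul, MulAut.mul_apply, MulAut.mul_apply, hk _ (hs g⁻¹ v hv), map_inv,
      MulAut.apply_inv_self]⟩

open scoped IsMulCommutative in
/-- An element of order `p` modulo the kernel, acting with class `n (p - 1) + 1`, fixes all
`p ^ n`-th powers. -/
theorem fix_agemo_of_pow_fix {p : ℕ} [Fact p.Prime] (φ : G →* MulAut V) (A : Subgroup V)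
    [IsMulCommutative A] (hAinv : ∀ g, ∀ a ∈ A, φ g a ∈ A) {x : G} (n : ℕ)
    (hx : ∀ a ∈ A, φ (x ^ p) a = a)
    (hcls : ∀ a ∈ A, (fun b => φ x b * b⁻¹)^[n * (p - 1) + 1] a = 1) :
    ∀ a ∈ A, φ x (a ^ p ^ n) = a ^ p ^ n := by
  let f : A →* A := ((φ x).toMonoidHom.comp A.subtype).codRestrict A fun a => hAinv x a a.2
  let F : AddMonoid.End (Additive A) := f.toAdditive
  set t : AddMonoid.End (Additive A) := F - 1 with ht
  have hF : ∀ (j : ℕ) (a : Additive A), (((F ^ j) a).toMul : V) = φ (x ^ j) (a.toMul : V) := by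
    intro j
    induction j with
    | zero => intro a; simp
    | succ j ih =>
      intro a
      rw [pow_succ', pow_succ', map_mul, MulAut.mul_apply, ← ih a]
      rfl
  have h1 : (1 + t) ^ p = 1 := by
    rw [ht, add_sub_cancel]
    refine AddMonoidHom.ext fun a => Additive.toMul.injective (Subtype.ext ?_)
    exact (hF p a).trans (hx _ (Additive.toMul a).2)
  have htapp : ∀ a : Additive A, (((t a)).toMul : V) = φ x (a.toMul : V) * (a.toMul : V)⁻¹ := by
    intro a
    change (((F a - a : Additive A)).toMul : V) = _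
    rw [toMul_sub, Subgroup.coe_div, div_eq_mul_inv]
    rfl
  have h2 : t ^ (n * (p - 1) + 1) = 0 := by
    refine AddMonoidHom.ext fun a => Additive.toMul.injective (Subtype.ext ?_)
    have key : ∀ (j : ℕ) (a : Additive A),
        (((t ^ j) a).toMul : V) = (fun b => φ x b * b⁻¹)^[j] (a.toMul : V) := by
      intro j
      induction j with
      | zero => intro a; simp
      | succ j ih =>
        intro a
        rw [pow_succ', Function.iterate_succ_apply', ← ih]
        exact htapp _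
    exact (key _ a).trans (hcls _ (Additive.toMul a).2)
  have h3 := natCast_pow_mul_eq_zero_of_unipotent t n h1 h2
  intro a ha
  have h4 : (p ^ n) • t (Additive.ofMul (⟨a, ha⟩ : A)) = 0 := by
    have := DFunLike.congr_fun h3 (Additive.ofMul (⟨a, ha⟩ : A))
    rw [← Nat.cast_pow] at this
    exact this
  rw [← map_nsmul] at h4
  have h5 := congrArg (fun z : Additive A => ((z.toMul : A) : V)) h4
  simp only [htapp, toMul_nsmul, SubmonoidClass.coe_pow, toMul_ofMul, toMul_zero, OneMemClass.coe_one,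
    mul_inv_eq_one] at h5
  exact h5

/-- Glauberman: on the `p ^ n`-th powers of the fixed points of a Sylow subgroup `P`, acting with
class at most `n (p - 1) + 1` on an abelian group, the whole group acts as `N(P)`. -/
theorem exists_normalizer_eq_on_agemo {G V : Type*} [Group G] [Group V] [Finite G] [Finite V]
    {p : ℕ} [hp : Fact p.Prime] (φ : G →* MulAut V) (P : Sylow p G) (n : ℕ) (A : Subgroup V)
    [IsMulCommutative A] (hAinv : ∀ g, ∀ a ∈ A, φ g a ∈ A)
    (hcls : ∀ x ∈ (P : Subgroup G), ∀ a ∈ A, (fun b => φ x b * b⁻¹)^[n * (p - 1) + 1] a = 1)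
    (g : G) :
    ∃ h ∈ Subgroup.normalizer ((P : Subgroup G) : Set G),
      ∀ z ∈ A, (∀ x ∈ (P : Subgroup G), φ x z = z) → φ g (z ^ p ^ n) = φ h (z ^ p ^ n) := by
  induction hm : Nat.card G + Nat.card A using Nat.strong_induction_on generalizing G A with
  | _ m ih =>
  set K₀ := fixer φ (A : Set V) with hK₀
  haveI : K₀.Normal := fixer_normal φ _ hAinv
  -- reduce to `O_p` acting trivially
  by_cases hR : Cfsg.pCore p G ≤ K₀
  swap
  · let A' : Subgroup V :=
      { carrier := {a | a ∈ A ∧ ∀ r ∈ Cfsg.pCore p G, φ r a = a}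
        one_mem' := ⟨A.one_mem, fun r _ => map_one _⟩
        mul_mem' := fun {a b} ha hb => ⟨A.mul_mem ha.1 hb.1, fun r hr => by
          rw [map_mul, ha.2 r hr, hb.2 r hr]⟩
        inv_mem' := fun {a} ha => ⟨A.inv_mem ha.1, fun r hr => by rw [map_inv, ha.2 r hr]⟩ }
    haveI : IsMulCommutative A' := ⟨⟨fun a b => Subtype.ext (congrArg (Subtype.val : A → V)
      (IsMulCommutative.is_comm.comm (⟨a.1, a.2.1⟩ : A) ⟨b.1, b.2.1⟩))⟩⟩
    have hA'inv : ∀ g, ∀ a ∈ A', φ g a ∈ A' := fun g a ha => ⟨hAinv g a ha.1, fun r hr => by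
      have h1 := ha.2 _ ((H19.pCore_normal p G).conj_mem r hr g⁻¹)
      rw [map_mul, map_mul, MulAut.mul_apply, MulAut.mul_apply, inv_inv] at h1
      calc φ r (φ g a) = φ g (φ g⁻¹ (φ r (φ g a))) := by
            rw [map_inv, MulAut.apply_inv_self]
        _ = φ g a := by rw [h1]⟩
    have hlt : A' < A := lt_of_le_of_ne (fun a ha => ha.1) fun e => hR fun r hr v hv => by
      have hv' : v ∈ A' := e.symm ▸ hv
      exact hv'.2 r hr
    obtain ⟨h, hh, he⟩ := ih _ (by
      have : Nat.card A' < Nat.card A := Set.Finite.card_lt_card (Set.toFinite (A : Set V)) hlt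
      omega) φ P A' hA'inv (fun x hx a ha => hcls x hx a ha.1) g rfl
    exact ⟨h, hh, fun z hz hfix =>
      he z ⟨hz, fun r hr => hfix r (H19.pCore_le_sylow P hr)⟩ hfix⟩
  -- Frattini arguments
  have hfrat : ∀ K : Subgroup G, K.Normal →
      K ⊔ Subgroup.normalizer (((P : Subgroup G) ⊓ K : Subgroup G) : Set G) = ⊤ := by
    intro K hK
    haveI := hK
    have h1 : ¬ p ∣ (((P : Subgroup G) ⊓ K).subgroupOf K).index := by
      rw [← Subgroup.relIndex, Subgroup.inf_relIndex_right]
      exact fun h => P.not_dvd_index (h.trans (H32.relIndex_dvd_index' _ K))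
    have h2 := Sylow.normalizer_sup_eq_top (((P.2.to_le inf_le_left).of_equiv
      (Subgroup.subgroupOfEquivOfLe (inf_le_right : (P : Subgroup G) ⊓ K ≤ K)).symm).toSylow h1)
    rw [IsPGroup.toSylow_coe, Subgroup.map_subgroupOf_eq_of_le inf_le_right, sup_comm] at h2
    exact h2
  by_cases hP : (P : Subgroup G) ≤ K₀
  · have h1 := hfrat K₀ inferInstance
    rw [inf_eq_left.2 hP] at h1
    obtain ⟨k, hk, h, hh, rfl⟩ := H19.exists_mul_of_sup_eq_top h1 g
    exact ⟨h, hh, fun z hz _ => by
      rw [map_mul, MulAut.mul_apply, hk _ (hAinv h _ (A.pow_mem hz _))]⟩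
  set K := fixer φ {v | ∃ a ∈ A, a ^ p ^ n = v} with hK
  haveI : K.Normal := fixer_normal φ _ (by
    rintro g _ ⟨a, ha, rfl⟩
    exact ⟨φ g a, hAinv g a ha, (map_pow _ _ _).symm⟩)
  -- an element of order `p` modulo `K₀` in `P`
  obtain ⟨x, hxP, hxK, hxp⟩ : ∃ x ∈ (P : Subgroup G), x ∉ K₀ ∧ x ^ p ∈ K₀ := by
    obtain ⟨y, hyP, hyK⟩ := SetLike.not_le_iff_exists.1 hP
    obtain ⟨k, hk⟩ := P.2 ⟨y, hyP⟩
    have hk' : y ^ p ^ k = 1 := congrArg Subtype.val hk
    have hex : ∃ j, y ^ p ^ j ∈ K₀ := ⟨k, hk' ▸ K₀.one_mem⟩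
    classical
    have h0 : Nat.find hex ≠ 0 := fun e => hyK (by
      have := Nat.find_spec hex
      rwa [e, pow_zero, pow_one] at this)
    refine ⟨y ^ p ^ (Nat.find hex - 1), (P : Subgroup G).pow_mem hyP _,
      Nat.find_min hex (by omega), ?_⟩
    rw [← pow_mul, ← pow_succ, Nat.sub_add_cancel (Nat.pos_of_ne_zero h0)]
    exact Nat.find_spec hex
  have hxK' : x ∈ K := by
    rintro _ ⟨a, ha, rfl⟩
    exact fix_agemo_of_pow_fix φ A hAinv n hxp (hcls x hxP) a ha
  set H := Subgroup.normalizer (((P : Subgroup G) ⊓ K : Subgroup G) : Set G) with hH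
  have hPH : (P : Subgroup G) ≤ H := by
    refine (le_inf Subgroup.le_normalizer ?_).trans Subgroup.inf_normalizer_le_normalizer_inf
    rw [Subgroup.normalizer_eq_top]
    exact le_top
  have hHne : H ≠ ⊤ := by
    intro e
    haveI : ((P : Subgroup G) ⊓ K).Normal := Subgroup.normalizer_eq_top_iff.1 e
    have hle := H19.le_pCore (p := p) (inferInstance : ((P : Subgroup G) ⊓ K).Normal)
      (P.2.to_le inf_le_left)
    exact hxK (hR (hle (Subgroup.mem_inf.2 ⟨hxP, hxK'⟩)))
  obtain ⟨k, hk, h₁, hh₁, rfl⟩ := H19.exists_mul_of_sup_eq_top (hfrat K inferInstance) g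
  obtain ⟨h, hh, he⟩ := ih _ (by
      have := H19.card_lt_of_ne_top H hHne
      omega) (φ.comp H.subtype) (P.subtype hPH) A (fun g a ha => hAinv g a ha)
    (fun y hy a ha => hcls y hy a ha) ⟨h₁, hh₁⟩ rfl
  refine ⟨h, ?_, fun z hz hfix => ?_⟩
  · have h2 := Subgroup.subgroupOf_normalizer_eq hPH
    rw [show ((P.subtype hPH : Sylow p H) : Subgroup H) = (P : Subgroup G).subgroupOf H from
      P.coe_subtype hPH, ← h2] at hh
    exact hh
  · rw [map_mul, MulAut.mul_apply,
      hk _ ⟨φ h₁ z, hAinv h₁ z hz, (map_pow _ _ _).symm⟩]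
    exact he z hz fun y hy => hfix y hy

end Cfsg.Agent.H33
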