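import Cfsg.Agent.H33.Agemo
import Cfsg.Agent.H93.Normal
import Cfsg.Prelude.Def_PLocal

/-! High powers of the centre are normal in fusion systems over groups of small class. -/

open scoped commutatorElement

namespace Cfsg.Agent.H33

open Cfsg Cfsg.FusionSystem

variable {Ω : Type*} [Group Ω] {S : Subgroup Ω}

/-- Iterated commutators with elements of `S` descend the lower central series. -/
theorem iterate_mem_lowerCentralSeries {T : Subgroup Ω} (hT : T ≤ S) (f : T → T) {s : Ω} (hs : s ∈ S)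
    (hf : ∀ b : T, (f b : Ω) = s * (b : Ω) * s⁻¹ * (b : Ω)⁻¹) (j : ℕ) (a : T) :
    (f^[j] a : Ω) ∈ S.lowerCentralSeries j := by
  induction j with
  | zero => exact hT a.2
  | succ j ih =>
    rw [Function.iterate_succ_apply', hf, Subgroup.lowerCentralSeries_succ, Subgroup.commutator_comm]
    simpa [commutatorElement_def] using Subgroup.commutator_mem_commutator hs ih

/-- A map between subgroups containing `Z(S)` preserves the high powers of `Z(S)`. -/
theorem isNormal_powerClosure_center [Finite S] {p : ℕ} [Fact p.Prime] (hS : IsPGroup p S)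
    (F : FusionSystem S) (hF : F.IsSaturated p) (n : ℕ)
    (hcl : Subgroup.lowerCentralSeries S (n * (p - 1) + 1) = ⊥) :
    F.IsNormal (Cfsg.powerClosure p n (S ⊓ Subgroup.centralizer (S : Set Ω))) := by
  set Z : Subgroup Ω := S ⊓ Subgroup.centralizer (S : Set Ω) with hZ
  set Q := Cfsg.powerClosure p n Z with hQ
  have hQZ : Q ≤ Z := (Subgroup.closure_le _).2 (by rintro _ ⟨x, hx, rfl⟩; exact Z.pow_mem hx _)
  have hZU : ∀ U : Subgroup Ω, F.IsCentric U → Z ≤ U := fun U hU =>
    le_trans (le_inf inf_le_left (inf_le_right.trans (Subgroup.centralizer_le hU.1)))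
      (hU.2 U (H93.isConj_refl F hU.1))
  let C : ∀ P : Subgroup Ω, (P →* Ω) → Prop := fun P φ => ∀ x : P, (x : Ω) ∈ Q → φ x ∈ Q
  have hres : ∀ (P R : Subgroup Ω) (h : R ≤ P) (φ : P →* Ω), φ ∈ F.Hom P → C P φ →
      C R (φ.comp (Subgroup.inclusion h)) := fun P R h φ _ hc x hx => hc (Subgroup.inclusion h x) hx
  have hgen : ∀ (U : Subgroup Ω), Z ≤ U → ∀ φ : U →* Ω,
      (∀ z, (hz : z ∈ Z) → ∀ h : z ^ p ^ n ∈ U, φ ⟨z ^ p ^ n, h⟩ ∈ Q) → C U φ := by
    intro U hU φ h x hx
    have hle : Q ≤ (Q.comap φ).map U.subtype := (Subgroup.closure_le _).2 (by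
      rintro _ ⟨z, hz, rfl⟩
      exact ⟨⟨z ^ p ^ n, U.pow_mem (hU hz) _⟩, h z hz _, rfl⟩)
    obtain ⟨y, hy, e⟩ := hle hx
    rwa [← show y = x from Subtype.ext e]
  have key : ∀ (m : ℕ) (U : Subgroup Ω), Nat.card S - Nat.card U = m → F.IsFullyNormalized U →
      F.IsCentric U → ∀ α ∈ F.autGroup U, C U (U.subtype.comp α.toMonoidHom) := by
    intro m
    induction m using Nat.strong_induction_on with
    | _ m ih =>
    intro U hm hU hc α hα
    have hUS := hU.1
    have hUZ := hZU U hc
    haveI := H93.finite_of_le hUS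
    haveI := H93.finite_mulAut hUS
    rcases eq_or_lt_of_le hUS with hUeq | hlt
    · refine hgen U hUZ _ fun z hz _ => ?_
      refine Subgroup.subset_closure ⟨(α ⟨z, hUZ hz⟩ : U), ?_, ?_⟩
      · refine Subgroup.mem_inf.2 ⟨hUS (Subtype.coe_prop _), Subgroup.mem_centralizer_iff.2 fun s hs => ?_⟩
        rw [← hUeq] at hs
        obtain ⟨y, hy⟩ := α.surjective ⟨s, hs⟩
        have h1 : y * ⟨z, hUZ hz⟩ = (⟨z, hUZ hz⟩ : U) * y := Subtype.ext
          (Subgroup.mem_centralizer_iff.1 hz.2 y (hUS y.2))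
        have h2 := congrArg (fun t : U => ((α t : U) : Ω)) h1
        simpa [map_mul, hy] using h2
      · change ((α ⟨z ^ p ^ n, _⟩ : U) : Ω) = _
        rw [← SubgroupClass.coe_pow, ← map_pow]
        rfl
    have hbig : ∀ (D : Subgroup Ω) (χ : D →* Ω), χ ∈ F.Hom D → Nat.card U < Nat.card D → C D χ := by
      intro D χ hχ hlt'
      refine (H94.alperin_induction hS hF (fun D χ => Nat.card D ≤ Nat.card U ∨ C D χ) ?_ ?_ ?_
        hχ).resolve_left hlt'.not_ge
      · rintro A B h χ hχ (hc | hc)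
        · have := H93.finite_of_le (H93.le_of_hom hχ)
          exact Or.inl ((Subgroup.card_le_of_le h).trans hc)
        · exact Or.inr (hres A B h χ hχ hc)
      · rintro A B φ ψ hφ hψ (hc | hc) hc' h
        · exact Or.inl hc
        rcases hc' with hc' | hc'
        · refine Or.inl (le_trans ?_ hc')
          have := H93.finite_of_le (H93.le_of_hom hψ)
          exact Nat.card_le_card_of_injective (φ.codRestrict B h) fun a b e =>
            F.injective_of_mem hφ (congrArg Subtype.val e)
        · exact Or.inr fun x hx => hc' ⟨φ x, h x⟩ (hc x hx)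
      · intro V hV hcV _ β hβ
        rcases le_or_gt (Nat.card V) (Nat.card U) with hle | hgt
        · exact Or.inl hle
        · refine Or.inr (ih _ ?_ V rfl hV hcV β hβ)
          have : Nat.card V ≤ Nat.card S := Subgroup.card_le_of_le hV.1
          omega
    obtain ⟨-, R, hR⟩ := H93.IsFullyNormalized.isFullyAutomized hS hF hU
    have hZcen : ∀ z, (hz : z ∈ Z) → (⟨z, hUZ hz⟩ : U) ∈ Subgroup.center U := fun z hz =>
      Subgroup.mem_center_iff.2 fun y =>
        Subtype.ext (Subgroup.mem_centralizer_iff.1 hz.2 y (hUS y.2))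
    have hcls : ∀ x ∈ (R : Subgroup (F.autGroup U)), ∀ a ∈ Subgroup.center U,
        (fun b => (F.autGroup U).subtype x b * b⁻¹)^[n * (p - 1) + 1] a = 1 := by
      intro x hx a _
      rw [hR, Subgroup.mem_subgroupOf, H93.mem_autInducedBy] at hx
      obtain ⟨s, hs, hsx⟩ := hx
      have h1 := iterate_mem_lowerCentralSeries hUS (fun b => (F.autGroup U).subtype x b * b⁻¹) hs
        (fun b => by
          rw [Subgroup.coe_mul, Subgroup.coe_inv]
          exact congrArg (· * (b : Ω)⁻¹) (hsx b)) (n * (p - 1) + 1) a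
      rw [hcl, Subgroup.mem_bot] at h1
      exact Subtype.ext h1
    obtain ⟨h, hh, he⟩ := exists_normalizer_eq_on_agemo (F.autGroup U).subtype R n (Subgroup.center U)
      (fun g a ha => Subgroup.mem_center_iff.2 fun y => by
        obtain ⟨y, rfl⟩ := ((g : MulAut U)).surjective y
        simp only [Subgroup.coe_subtype]
        rw [← map_mul, ← map_mul, Subgroup.mem_center_iff.1 ha y])
      hcls ⟨α, hα⟩
    have hhm := (H93.mem_autGroup_iff hUS).1 h.2
    have hr : (U.subtype.comp (h : MulAut U).toMonoidHom).range = U := by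
      apply le_antisymm
      · rintro _ ⟨x, rfl⟩; exact Subtype.coe_prop _
      · intro x hx; exact ⟨(h : MulAut U)⁻¹ ⟨x, hx⟩, by simp⟩
    obtain ⟨ψ, hψ, hext⟩ := H93.exists_extension hhm hr (H93.IsFullyNormalized.isReceptive hS hF hU)
    have hN : normalizerIn S U ≤ extender S U (U.subtype.comp (h : MulAut U).toMonoidHom) := by
      intro g hg
      let τ : F.autGroup U := ⟨H93.conjAut S U ⟨g, hg⟩,
        H93.autInducedBy_le_autGroup F hUS (H93.autInducedBy_eq_range S U ▸ ⟨_, rfl⟩)⟩
      have hτ : τ ∈ (R : Subgroup (F.autGroup U)) :=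
        hR ▸ Subgroup.mem_subgroupOf.2 (H93.autInducedBy_eq_range S U ▸ ⟨_, rfl⟩)
      have h2 : h * τ * h⁻¹ ∈ (R : Subgroup (F.autGroup U)) :=
        (Subgroup.mem_normalizer_iff.1 hh τ).1 hτ
      rw [hR, Subgroup.mem_subgroupOf, H93.mem_autInducedBy] at h2
      obtain ⟨g', hg', hg'e⟩ := h2
      refine H93.mem_extender.2 ⟨hg, g', hg', fun x hx => ?_⟩
      show (((h : MulAut U) ⟨_, hx⟩ : U) : Ω) = g' * (((h : MulAut U) x : U) : Ω) * g'⁻¹
      rw [← hg'e]
      simp only [Subgroup.coe_mul, Subgroup.coe_inv, MulAut.mul_apply, MulAut.inv_apply_self]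
      exact congrArg (fun z : U => (((h : MulAut U) z : U) : Ω)) (Subtype.ext rfl)
    have hD : Nat.card U < Nat.card (extender S U (U.subtype.comp (h : MulAut U).toMonoidHom)) := by
      haveI := H93.finite_of_le (H93.le_of_hom hψ)
      exact Set.Finite.card_lt_card (Set.toFinite _)
        (lt_of_lt_of_le (H93.lt_normalizerIn hS hlt) hN)
    have hCψ := hbig _ ψ hψ hD
    refine hgen U hUZ _ fun z hz _ => ?_
    have h3 := he ⟨z, hUZ hz⟩ (hZcen z hz) fun x hx => by
      rw [hR, Subgroup.mem_subgroupOf, H93.mem_autInducedBy] at hx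
      obtain ⟨s, hs, hsx⟩ := hx
      refine Subtype.ext ?_
      refine (hsx _).trans ?_
      show s * z * s⁻¹ = z
      rw [Subgroup.mem_centralizer_iff.1 hz.2 s hs, mul_inv_cancel_right]
    have h4 := hCψ (Subgroup.inclusion (H93.le_extender hhm) (⟨z, hUZ hz⟩ ^ p ^ n))
      (Subgroup.subset_closure ⟨z, hz, rfl⟩)
    rw [hext] at h4
    change ((α ⟨z ^ p ^ n, _⟩ : U) : Ω) ∈ Q
    rw [show (⟨z ^ p ^ n, _⟩ : U) = ⟨z, hUZ hz⟩ ^ p ^ n from Subtype.ext rfl]
    exact (congrArg Subtype.val h3).symm ▸ h4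
  refine H93.isNormal_of_centric_radical hS hF (hQZ.trans inf_le_left) fun U hU hc _ =>
    ⟨hQZ.trans (hZU U hc), fun α hα x hx => key _ U rfl hU hc α hα x hx⟩

/-- In a group whose centre has exponent dividing `m`, class `c` gives exponent dividing `m ^ c`. -/
theorem exponent_dvd_pow_of_center {T : Type*} [Group T] (m c : ℕ)
    (hm : ∀ z ∈ Subgroup.center T, z ^ m = 1) (hc : Subgroup.upperCentralSeries T c = ⊤) :
    Monoid.exponent T ∣ m ^ c := by
  have step : ∀ k, ∀ x ∈ Subgroup.upperCentralSeries T (k + 1),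
      x ^ m ∈ Subgroup.upperCentralSeries T k := by
    intro k
    induction k with
    | zero =>
      intro x hx
      rw [zero_add, Subgroup.upperCentralSeries_one] at hx
      rw [Subgroup.upperCentralSeries_zero, Subgroup.mem_bot]
      exact hm x hx
    | succ k ih =>
      intro x hx
      rw [Subgroup.mem_upperCentralSeries_succ_iff]
      intro g
      set f := QuotientGroup.mk' (Subgroup.upperCentralSeries T k)
      have hcg := Subgroup.mem_upperCentralSeries_succ_iff.1 hx g
      have hcen : ∀ y, Commute (f ⁅x, g⁆) y := by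
        intro y
        obtain ⟨y, rfl⟩ := QuotientGroup.mk'_surjective _ y
        rw [← commutatorElement_eq_one_iff_commute, ← map_commutatorElement]
        exact (QuotientGroup.eq_one_iff _).2 (Subgroup.mem_upperCentralSeries_succ_iff.1 hcg y)
      rw [← QuotientGroup.eq_one_iff]
      change f ⁅x ^ m, g⁆ = 1
      have h1 : f g * (f x)⁻¹ * (f g)⁻¹ = (f x)⁻¹ * f ⁅x, g⁆ := by
        rw [map_commutatorElement, commutatorElement_def]; group
      have h2 : f ⁅x ^ m, g⁆ = (f ⁅x, g⁆) ^ m := by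
        rw [map_commutatorElement, map_pow, commutatorElement_def]
        calc f x ^ m * f g * (f x ^ m)⁻¹ * (f g)⁻¹
            = f x ^ m * (f g * (f x)⁻¹ * (f g)⁻¹) ^ m := by
              rw [conj_pow, inv_pow]; group
          _ = f x ^ m * ((f x)⁻¹ ^ m * (f ⁅x, g⁆) ^ m) := by
              rw [h1, (hcen (f x)⁻¹).symm.mul_pow]
          _ = (f ⁅x, g⁆) ^ m := by rw [inv_pow, mul_inv_cancel_left]
      rw [h2, ← map_pow]
      exact (QuotientGroup.eq_one_iff _).2 (ih _ hcg)
  refine Monoid.exponent_dvd_of_forall_pow_eq_one fun x => ?_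
  have key : ∀ k, ∀ x ∈ Subgroup.upperCentralSeries T k, x ^ (m ^ k) = 1 := by
    intro k
    induction k with
    | zero => intro x hx; rw [Subgroup.upperCentralSeries_zero, Subgroup.mem_bot] at hx; simp [hx]
    | succ k ih =>
      intro x hx
      rw [pow_succ', pow_mul]
      exact ih _ (step k x hx)
  exact key c x (hc ▸ Subgroup.mem_top x)

/-- The exponent of `S` when the fusion system has trivial core and `S` has small class. -/
theorem exponent_dvd_of_core_eq_bot [Finite S] {p : ℕ} [Fact p.Prime] (hS : IsPGroup p S)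
    (F : FusionSystem S) (hF : F.IsSaturated p) (n : ℕ)
    (hcl : Subgroup.lowerCentralSeries S (n * (p - 1) + 1) = ⊥) (hcore : F.core = ⊥) :
    Monoid.exponent S ∣ p ^ (n ^ 2 * (p - 1) + n) := by
  have hQ : Cfsg.powerClosure p n (S ⊓ Subgroup.centralizer (S : Set Ω)) = ⊥ :=
    le_bot_iff.1 (hcore ▸ le_sSup (isNormal_powerClosure_center hS F hF n hcl))
  have hm : ∀ z ∈ Subgroup.center S, z ^ p ^ n = 1 := by
    intro z hz
    have h1 : (z : Ω) ^ p ^ n ∈ Cfsg.powerClosure p n (S ⊓ Subgroup.centralizer (S : Set Ω)) :=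
      Subgroup.subset_closure ⟨z, Subgroup.mem_inf.2 ⟨z.2, Subgroup.mem_centralizer_iff.2 fun s hs =>
        congrArg Subtype.val (Subgroup.mem_center_iff.1 hz ⟨s, hs⟩)⟩, rfl⟩
    rw [hQ, Subgroup.mem_bot] at h1
    exact Subtype.ext h1
  have hup : Subgroup.upperCentralSeries S (n * (p - 1) + 1) = ⊤ := by
    have hlow : (⊤ : Subgroup S).lowerCentralSeries (n * (p - 1) + 1) = ⊥ := by
      rw [← Subgroup.map_eq_bot_iff_of_injective _ S.subtype_injective,
        Subgroup.map_lowerCentralSeries, ← MonoidHom.range_eq_map, Subgroup.range_subtype, hcl]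
    haveI : Group.IsNilpotent S :=
      (Subgroup.isNilpotent_iff_lowerCentralSeries S).2 ⟨_, hcl⟩
    rw [Subgroup.upperCentralSeries_eq_top_iff_nilpotencyClass_le,
      ← Subgroup.lowerCentralSeries_eq_bot_iff_nilpotencyClass_le]
    exact hlow
  have := exponent_dvd_pow_of_center (p ^ n) _ hm hup
  rwa [← pow_mul, show n * (n * (p - 1) + 1) = n ^ 2 * (p - 1) + n by ring] at this

end Cfsg.Agent.H33
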