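import Mathlib
import Cfsg.Prelude.Def_Solvable
import Cfsg.Agent.H85.AbelianConjugateSolvable
import Cfsg.Agent.H19.Fitting
import Cfsg.Agent.H19.MinimalNormal
import Cfsg.Agent.H20.External
import Cfsg.Agent.H20.TransitiveFpf
import Cfsg.Agent.H54.FpfTools

/-!
Solvable groups with conjugate abelian subgroups of equal order in which every normal elementary
abelian subgroup is cyclic: no noncyclic elementary subgroup, every quaternion subgroup of order
eight is normal.
-/

set_option autoImplicit false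
set_option linter.style.haveILetI false

namespace Cfsg.Agent.H33.ConjAb

open Cfsg.Agent.H85

universe u

theorem mulAut_comm {N : Type*} [Group N] (hN : IsCyclic N) (f g : MulAut N) : f * g = g * f := by
  obtain ⟨x, hx⟩ := hN.exists_generator
  obtain ⟨a, ha⟩ := Subgroup.mem_zpowers_iff.1 (hx (f x))
  obtain ⟨b, hb⟩ := Subgroup.mem_zpowers_iff.1 (hx (g x))
  refine MulEquiv.ext fun y => ?_
  obtain ⟨k, rfl⟩ := Subgroup.mem_zpowers_iff.1 (hx y)
  simp only [MulAut.mul_apply, map_zpow]
  congr 1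
  rw [← hb, ← ha, map_zpow, map_zpow, ← hb, ← ha, ← zpow_mul, ← zpow_mul, mul_comm]

variable {X : Type u} [Group X] [Finite X]

theorem exists_two {q : ℕ} [Fact q.Prime] {E : Subgroup X} (hE : Cfsg.IsElementaryAbelian q E)
    (hc : q ^ 2 ∣ Nat.card E) :
    ∃ x ∈ E, ∃ y ∈ E, orderOf x = q ∧ orderOf y = q ∧ y ∉ Subgroup.zpowers x := by
  obtain ⟨⟨x, hxE⟩, hxo⟩ := exists_prime_orderOf_dvd_card' (G := E) q
    ((dvd_pow_self q two_ne_zero).trans hc)
  rw [Subgroup.orderOf_mk] at hxo
  obtain ⟨y, hyE, hy⟩ : ∃ y ∈ E, y ∉ Subgroup.zpowers x := by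
    by_contra h
    push Not at h
    have h1 := Nat.le_of_dvd Nat.card_pos (hc.trans (Subgroup.card_dvd_of_le h))
    rw [Nat.card_zpowers, hxo] at h1
    have := (Fact.out : q.Prime).two_le
    nlinarith
  refine ⟨x, hxE, y, hyE, hxo, orderOf_eq_prime (hE.2 y hyE) ?_, hy⟩
  rintro rfl
  exact hy (one_mem _)

/-- A homomorphism with commuting values kills every element of order `q` if `X` has an elementary
subgroup of order `q ^ 2`. -/
theorem map_eq_one (hB : AbConj X) {Y : Type*} [Group Y] (φ : X →* Y)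
    (hφ : ∀ a b, φ a * φ b = φ b * φ a) {q : ℕ} [Fact q.Prime] {E : Subgroup X}
    (hE : Cfsg.IsElementaryAbelian q E) (hc : q ^ 2 ∣ Nat.card E) {a : X} (ha : orderOf a = q) :
    φ a = 1 := by
  obtain ⟨x, hxE, y, hyE, hxo, hyo, hy⟩ := exists_two hE hc
  obtain ⟨g, b, hb, e⟩ := hB.exists_conj_mem (A := Subgroup.zpowers x) inferInstance (x := y)
    (by rw [Nat.card_zpowers, hxo, hyo])
  obtain ⟨k, rfl⟩ := Subgroup.mem_zpowers_iff.1 hb
  have hk : φ (y * (x ^ k)⁻¹) = 1 := by
    rw [e, map_mul, map_mul, map_mul, hφ g, mul_assoc (φ (x ^ k)), ← map_mul φ g, mul_inv_cancel,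
      map_one, mul_one, ← map_mul, mul_inv_cancel, map_one]
  have h1 : y * (x ^ k)⁻¹ ≠ 1 := fun h => hy (mul_inv_eq_one.1 h ▸ hb)
  have ho : orderOf (y * (x ^ k)⁻¹) = q :=
    orderOf_eq_prime (hE.2 _ (mul_mem hyE (inv_mem (zpow_mem hxE k)))) h1
  exact MonoidHom.mem_ker.1 (hB.mem_of_orderOf_eq φ.normal_ker (MonoidHom.mem_ker.2 hk)
    (ho.trans ha.symm))

variable [Group.IsSolvable X]
  (hnc : ∀ (r : ℕ) [Fact r.Prime] (R : Subgroup X), R.Normal → Cfsg.IsElementaryAbelian r R →
    IsCyclic R)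
include hnc

omit hnc in
theorem mem_pCore_two_of_mem_fitting {x : X} (hx : x ∈ Cfsg.fittingSubgroup X)
    (h : ∃ n, orderOf x = 2 ^ n) : x ∈ Cfsg.pCore 2 X := by
  haveI : Fact (Nat.Prime 2) := ⟨Nat.prime_two⟩
  haveI := H19.fitting_isNilpotent (G := X)
  haveI := H19.fitting_normal X
  obtain ⟨n, hn⟩ := h
  have hz : IsPGroup 2 (Subgroup.zpowers (⟨x, hx⟩ : Cfsg.fittingSubgroup X)) :=
    IsPGroup.of_card (n := n) (by rw [Nat.card_zpowers, Subgroup.orderOf_mk, hn])
  obtain ⟨P, hP⟩ := hz.exists_le_sylow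
  have hPn : (P : Subgroup (Cfsg.fittingSubgroup X)).Normal :=
    ((Group.isNilpotent_of_finite_tfae (G := Cfsg.fittingSubgroup X)).out 0 3 rfl rfl).1
      inferInstance 2 inferInstance P
  haveI := P.characteristic_of_normal hPn
  exact H19.le_pCore ConjAct.normal_of_characteristic_of_normal (P.2.map _)
    ⟨_, hP (Subgroup.mem_zpowers _), rfl⟩

/-- A nontrivial normal `r`-subgroup contains a normal subgroup of order `r`. -/
theorem exists_normal_order {r : ℕ} [Fact r.Prime] {N : Subgroup X} [N.Normal] (hN : IsPGroup r N)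
    (hN1 : N ≠ ⊥) : ∃ R : Subgroup X, R.Normal ∧ R ≤ N ∧ Nat.card R = r := by
  obtain ⟨R, q, hRn, hRN, hR1, hRc, hq, hRq, hRe⟩ :=
    H19.exists_normal_elementary_le N inferInstance hN1
  haveI : Fact q.Prime := ⟨hq⟩
  haveI : Nontrivial R := (Subgroup.nontrivial_iff_ne_bot R).2 hR1
  obtain ⟨k, hk, hk'⟩ := hRq.nontrivial_iff_card.1 inferInstance
  obtain ⟨l, hl, hl'⟩ := (hN.to_le hRN).nontrivial_iff_card.1 inferInstance
  have hqr : q = r := (Nat.prime_dvd_prime_iff_eq hq Fact.out).1
    (hq.dvd_of_dvd_pow ((dvd_pow_self q hk.ne').trans (hk'.symm.trans hl').dvd))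
  subst hqr
  haveI := hnc q R hRn ⟨hRc, hRe⟩
  obtain ⟨g, hg⟩ := IsCyclic.exists_generator (α := R)
  refine ⟨R, hRn, hRN, ?_⟩
  rw [← orderOf_eq_card_of_forall_mem_zpowers hg]
  refine orderOf_eq_prime (Subtype.ext (by simpa using hRe g g.2)) fun e => ?_
  have h1 := orderOf_eq_card_of_forall_mem_zpowers hg
  rw [e, orderOf_one] at h1
  exact absurd h1.symm (Finite.one_lt_card_iff_nontrivial.2 inferInstance).ne'

/-- A normal `r`-subgroup is cyclic, or the quaternion Sylow 2-subgroup of order 8. -/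
theorem pGroup_cases (hB : AbConj X) {r : ℕ} [Fact r.Prime] {N : Subgroup X} [N.Normal]
    (hN : IsPGroup r N) :
    IsCyclic N ∨ (r = 2 ∧ Nonempty (N ≃* QuaternionGroup 2) ∧
      ∀ Q : Subgroup X, IsPGroup 2 Q → Q ≤ N) := by
  by_cases hN1 : N = ⊥
  · subst hN1
    exact Or.inl inferInstance
  obtain ⟨R, hRn, hRN, hRc⟩ := exists_normal_order hnc hN hN1
  haveI := hRn
  have huniq : ∀ (P : Subgroup X) (A B : Subgroup P), Nat.card A = r → Nat.card B = r → A = B := by
    intro P A B hA hB'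
    have hle : ∀ A : Subgroup P, Nat.card A = r → A.map P.subtype = R := fun A hA =>
      Subgroup.eq_of_le_of_card_ge (fun a ha => hB.pow_eq_one_mem hRc (by
        obtain ⟨b, hb, rfl⟩ := ha
        rw [← map_pow, show b ^ r = 1 from congrArg Subtype.val
          (show (⟨b, hb⟩ : A) ^ r = 1 by rw [← hA, pow_card_eq_one']), map_one]))
        (by rw [Subgroup.card_map_of_injective P.subtype_injective, hA, hRc])
    exact Subgroup.map_injective P.subtype_injective ((hle A hA).trans (hle B hB').symm)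
  rcases H21.cyclic_or_quaternion r hN (huniq N) with h | ⟨rfl, n, ⟨e⟩⟩
  · exact Or.inl h
  rcases Nat.eq_zero_or_pos n with rfl | hn
  · haveI : IsCyclic (QuaternionGroup (2 ^ 0)) := QuaternionGroup.quaternionGroup_one_isCyclic
    exact Or.inl (isCyclic_of_surjective e.symm.toMonoidHom e.symm.surjective)
  obtain ⟨P, hNP⟩ := hN.exists_le_sylow
  rcases H21.cyclic_or_quaternion 2 P.2 (huniq P) with h | ⟨-, m, ⟨e'⟩⟩
  · exact Or.inl (isCyclic_of_injective (Subgroup.inclusion hNP) (Subgroup.inclusion_injective hNP))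
  have hP8 := hB.card_quaternion_dvd inferInstance P e'
  have hNc : Nat.card N = 4 * 2 ^ n := by
    rw [Nat.card_congr e.toEquiv, Nat.card_eq_fintype_card, QuaternionGroup.card]
  have hle := Nat.le_of_dvd Nat.card_pos (Subgroup.card_dvd_of_le hNP)
  have hP := Nat.le_of_dvd (by norm_num) hP8
  have h2n : 2 ≤ 2 ^ n := Nat.le_self_pow hn.ne' 2
  have hn1 : n = 1 := by
    by_contra hne
    have : 2 ^ 2 ≤ 2 ^ n := Nat.pow_le_pow_right (by norm_num) (by omega)
    omega
  subst hn1
  have hNPe : N = P := Subgroup.eq_of_le_of_card_ge hNP (by omega)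
  refine Or.inr ⟨rfl, ⟨e⟩, fun Q hQ => ?_⟩
  obtain ⟨P', hQP⟩ := hQ.exists_le_sylow
  obtain ⟨g, hg⟩ := MulAction.exists_smul_eq X P P'
  intro x hx
  have h1 := hQP hx
  rw [← hg, Sylow.coe_subgroup_smul, Subgroup.mem_pointwise_smul_iff_inv_smul_mem, ← hNPe] at h1
  simpa [mul_assoc] using Subgroup.Normal.conj_mem (inferInstance : N.Normal) _ h1 g

omit [Group.IsSolvable X] hnc in
/-- Centralising every `O_r` means centralising `F(X)`. -/
theorem mem_centralizer_fitting {x : X}
    (h : ∀ (r : ℕ) [Fact r.Prime], x ∈ Subgroup.centralizer (Cfsg.pCore r X : Set X)) :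
    x ∈ Subgroup.centralizer (Cfsg.fittingSubgroup X : Set X) := by
  rw [Subgroup.mem_centralizer_iff]
  intro f hf
  have hle : Cfsg.fittingSubgroup X ≤ Subgroup.centralizer ({x} : Set X) := by
    rw [H19.fitting_eq_iSup_pCore']
    refine iSup_le fun r y hy => ?_
    haveI : Fact (r : ℕ).Prime := ⟨Nat.prime_of_mem_primeFactors r.2⟩
    exact Subgroup.mem_centralizer_singleton_iff.2 (Subgroup.mem_centralizer_iff.1 (h r) y hy)
  exact Subgroup.mem_centralizer_singleton_iff.1 (hle hf)

/-- No noncyclic elementary abelian subgroup. -/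
theorem no_elementary (hB : AbConj X) {q : ℕ} [Fact q.Prime] {E : Subgroup X}
    (hE : Cfsg.IsElementaryAbelian q E) : ¬ q ^ 2 ∣ Nat.card E := by
  intro hc
  have hq : q.Prime := Fact.out
  obtain ⟨x, hxE, y, hyE, hxo, hyo, hy⟩ := exists_two hE hc
  haveI := H19.fitting_normal X
  have hall : ∀ (r : ℕ) [Fact r.Prime], x ∈ Subgroup.centralizer (Cfsg.pCore r X : Set X) := by
    intro r _
    haveI := H19.pCore_normal r X
    set N := Cfsg.pCore r X
    let φ : X →* MulAut N := MulAut.conjNormal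
    have hker : φ x = 1 → x ∈ Subgroup.centralizer (N : Set X) := fun h => by
      rw [Subgroup.mem_centralizer_iff]
      intro n hn
      have := congrArg Subtype.val (DFunLike.congr_fun h (⟨n, hn⟩ : N))
      simp only [φ, MulAut.conjNormal_apply, MulAut.one_apply] at this
      exact (mul_inv_eq_iff_eq_mul.1 this).symm
    rcases pGroup_cases hnc hB (H19.pCore_isPGroup (G := X) r) with h | ⟨rfl, ⟨e⟩, hN⟩
    · exact hker (map_eq_one hB φ (fun a b => mulAut_comm h _ _) hE hc hxo)
    · -- `q = 2` would put the four-group into `Q₈`; otherwise `q ^ 2` divides `|Aut Q₈|`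
      refine hker (by_contra fun hne => ?_)
      by_cases hq2 : q = 2
      · subst hq2
        have hEN := hN E (fun a => ⟨1, Subtype.ext (by simpa using hE.2 a a.2)⟩)
        have hu : ∀ a b : QuaternionGroup 2, a * a = 1 → b * b = 1 → a ≠ 1 → b ≠ 1 → a = b := by
          decide +kernel
        refine hy ?_
        have hsq : ∀ a : X, a ∈ E → ∀ h : a ∈ N, e ⟨a, h⟩ * e ⟨a, h⟩ = 1 := fun a ha h => by
          rw [← map_mul, ← map_one e]
          refine congrArg e (Subtype.ext ?_)
          show a * a = 1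
          rw [← sq]
          exact hE.2 a ha
        have hne1 : ∀ a : X, orderOf a = 2 → ∀ h : a ∈ N, e ⟨a, h⟩ ≠ 1 := fun a ha h e1 => by
          have h2 : a = 1 := congrArg Subtype.val (e.injective (e1.trans e.map_one.symm))
          rw [h2, orderOf_one] at ha
          exact absurd ha (by norm_num)
        have hxy : (⟨x, hEN hxE⟩ : N) = ⟨y, hEN hyE⟩ := e.injective (hu _ _ (hsq x hxE _)
          (hsq y hyE _) (hne1 x hxo _) (hne1 y hyo _))
        exact (show x = y from congrArg Subtype.val hxy) ▸ Subgroup.mem_zpowers x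
      -- `E` embeds
      let ψ : E →* MulAut N := φ.comp E.subtype
      have hinj : Function.Injective ψ := by
        rw [← MonoidHom.ker_eq_bot_iff, eq_bot_iff]
        intro a ha
        rw [Subgroup.mem_bot]
        by_contra ha1
        exact hne (MonoidHom.mem_ker.1 (hB.mem_of_orderOf_eq φ.normal_ker (m := (a : X)) (a := x)
          (MonoidHom.mem_ker.2 (MonoidHom.mem_ker.1 ha))
          ((orderOf_eq_prime (hE.2 a a.2) fun h => ha1 (Subtype.ext h)).trans hxo.symm)))
      let c : MulAut N ≃* MulAut (QuaternionGroup 2) := MulAut.congr e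
      have h1 : q ^ 2 ∣ Nat.card (MulAut (QuaternionGroup 2)) := by
        rw [← Nat.card_congr c.toEquiv]
        refine hc.trans ((Nat.card_congr (MonoidHom.ofInjective hinj).toEquiv).dvd.trans ?_)
        exact Subgroup.card_subgroup_dvd_card _
      have h4 : 4 ∣ Nat.card (MulAut (QuaternionGroup 2)) :=
        H20.TransFpf.inner_q8_card ▸ Subgroup.card_subgroup_dvd_card _
      have h36 : 4 * q ^ 2 ∣ Nat.card (MulAut (QuaternionGroup 2)) :=
        Nat.Coprime.mul_dvd_of_dvd_of_dvd (by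
          rw [show (4 : ℕ) = 2 ^ 2 from rfl]
          exact ((Nat.coprime_primes Nat.prime_two hq).2 (Ne.symm hq2)).pow 2 2) h4 h1
      haveI : Finite (MulAut (QuaternionGroup 2)) := Finite.of_injective (fun f => (f : _ → _))
        DFunLike.coe_injective
      have := (Nat.le_of_dvd Nat.card_pos h36).trans H20.TransFpf.card_mulAut_q8_le
      have : 3 ≤ q := by have := hq.two_le; omega
      nlinarith
  have hxF : x ∈ Cfsg.fittingSubgroup X := H19.centralizer_fitting_le (mem_centralizer_fitting hall)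
  -- so the Sylow `q`-part of `F(X)` holds a unique subgroup of order `q`
  haveI := H19.fitting_isNilpotent (G := X)
  obtain ⟨P⟩ := (inferInstance : Nonempty (Sylow q (Cfsg.fittingSubgroup X)))
  have hPn : (P : Subgroup (Cfsg.fittingSubgroup X)).Normal :=
    ((Group.isNilpotent_of_finite_tfae (G := Cfsg.fittingSubgroup X)).out 0 3 rfl rfl).1
      inferInstance q inferInstance P
  haveI := P.characteristic_of_normal hPn
  set N := (P : Subgroup (Cfsg.fittingSubgroup X)).map (Cfsg.fittingSubgroup X).subtype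
  haveI : N.Normal := ConjAct.normal_of_characteristic_of_normal
  have hN1 : N ≠ ⊥ := by
    rw [Ne, Subgroup.map_eq_bot_iff_of_injective _ (Cfsg.fittingSubgroup X).subtype_injective]
    intro hbot
    have h2 := P.dvd_card_of_dvd_card (hxo ▸ Subgroup.orderOf_dvd_natCard _ hxF)
    rw [hbot, Subgroup.card_bot] at h2
    exact hq.not_dvd_one h2
  obtain ⟨R, hRn, -, hRc⟩ := exists_normal_order hnc (P.2.map _) hN1
  haveI := hRn
  have hxR : x ∈ R := hB.pow_eq_one_mem hRc (hE.2 x hxE)
  have hyR : y ∈ R := hB.pow_eq_one_mem hRc (hE.2 y hyE)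
  refine hy ?_
  have : Subgroup.zpowers x = R := Subgroup.eq_of_le_of_card_ge (Subgroup.zpowers_le.2 hxR)
    (by rw [Nat.card_zpowers, hxo, hRc])
  rwa [this]

/-- Every quaternion subgroup of order eight is normal. -/
theorem quaternion_normal (hB : AbConj X) {Q : Subgroup X} (e : Q ≃* QuaternionGroup 2) :
    Q.Normal := by
  haveI : Fact (Nat.Prime 2) := ⟨Nat.prime_two⟩
  haveI := H19.pCore_normal 2 X
  have hQ8 : Nat.card Q = 8 := by
    rw [Nat.card_congr e.toEquiv, Nat.card_eq_fintype_card, QuaternionGroup.card]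
  have hQ2 : IsPGroup 2 Q := IsPGroup.of_card (n := 3) hQ8
  rcases pGroup_cases hnc hB (H19.pCore_isPGroup (G := X) 2) with hcyc | ⟨-, ⟨e'⟩, hN⟩
  swap
  · have : Q = Cfsg.pCore 2 X := Subgroup.eq_of_le_of_card_ge (hN Q hQ2) (by
      rw [hQ8, Nat.card_congr e'.toEquiv, Nat.card_eq_fintype_card, QuaternionGroup.card])
    rw [this]
    infer_instance
  exfalso
  set i : X := ((e.symm (QuaternionGroup.a 1) : Q) : X) with hi
  set j : X := ((e.symm (QuaternionGroup.xa 0) : Q) : X) with hj
  have ho : ∀ a : QuaternionGroup 2, a * a ≠ 1 → a * a * (a * a) = 1 →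
      orderOf ((e.symm a : Q) : X) = 4 := by
    intro a h1 h2
    rw [Subgroup.orderOf_coe, MulEquiv.orderOf_eq]
    refine orderOf_eq_prime_pow (p := 2) (n := 1) (by rwa [pow_one, sq]) ?_
    rw [show (2 : ℕ) ^ (1 + 1) = 2 + 2 from rfl, pow_add, sq]
    exact h2
  have hio : orderOf i = 4 := ho _ (by decide +kernel) (by decide +kernel)
  have hjo : orderOf j = 4 := ho _ (by decide +kernel) (by decide +kernel)
  have hxo : orderOf (i * j⁻¹) = 4 := by
    rw [hi, hj, ← Subgroup.coe_inv, ← Subgroup.coe_mul, ← map_inv, ← map_mul]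
    exact ho _ (by decide +kernel) (by decide +kernel)
  have hcomm : i * i = i * j * i⁻¹ * j⁻¹ := by
    simp only [hi, hj, ← Subgroup.coe_inv, ← Subgroup.coe_mul, ← map_inv, ← map_mul]
    exact congrArg (fun a => ((e.symm a : Q) : X)) (by decide +kernel)
  have hij : i * j ≠ j * i := by
    simp only [hi, hj, ← Subgroup.coe_mul, ← map_mul]
    intro h
    exact absurd (e.symm.injective (Subtype.ext h)) (by decide +kernel)
  -- no element of `O_2` has order 4
  have hno : ∀ c ∈ Cfsg.pCore 2 X, orderOf c ≠ 4 := by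
    intro c hc hco
    have h := fun a (ha : orderOf a = 4) =>
      hB.mem_of_orderOf_eq (a := a) (H19.pCore_normal 2 X) hc (hco.trans ha.symm)
    haveI := hcyc
    exact hij (congrArg Subtype.val
      (IsMulCommutative.is_comm.comm (⟨i, h i hio⟩ : Cfsg.pCore 2 X) ⟨j, h j hjo⟩))
  refine hno (i * j⁻¹) (mem_pCore_two_of_mem_fitting (H19.centralizer_fitting_le
    (mem_centralizer_fitting fun r _ => ?_)) ⟨2, hxo⟩) hxo
  haveI := H19.pCore_normal r X
  set N := Cfsg.pCore r X with hN
  have hNc : IsCyclic N := by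
    rcases pGroup_cases hnc hB (H19.pCore_isPGroup (G := X) r) with h | ⟨rfl, ⟨e'⟩, -⟩
    · exact h
    · exact hcyc
  let φ : X →* MulAut N := MulAut.conjNormal
  have hφ : ∀ a b, φ a * φ b = φ b * φ a := fun a b => mulAut_comm hNc _ _
  obtain ⟨g, b, hb, hge⟩ := hB.exists_conj_mem (A := Subgroup.zpowers i) inferInstance (x := j)
    (by rw [Nat.card_zpowers, hio, hjo])
  obtain ⟨k, rfl⟩ := Subgroup.mem_zpowers_iff.1 hb
  have hφj : φ j = φ i ^ k := by
    rw [hge, map_mul, map_mul, hφ g, mul_assoc, ← map_mul, mul_inv_cancel, map_one, mul_one, map_zpow]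
  have hφ2 : φ i * φ i = 1 := by
    rw [← map_mul, hcomm, map_mul, map_mul, map_mul, hφ i, mul_assoc (φ j), ← map_mul, mul_inv_cancel,
      map_one, mul_one, ← map_mul, mul_inv_cancel, map_one]
  have hodd : ¬ (2 : ℤ) ∣ k := by
    rintro ⟨l, rfl⟩
    have h1 : (i ^ (2 * l)) ^ 2 = 1 := by
      rw [← zpow_natCast (i ^ (2 * l)) 2, ← zpow_mul, show (2 * l * ((2 : ℕ) : ℤ)) = (4 : ℤ) * l by
        push_cast; ring, zpow_mul]
      norm_cast
      rw [← hio, pow_orderOf_eq_one, one_zpow]
    have h2 : j ^ 2 = 1 := by rw [hge, conj_pow, h1]; group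
    have := orderOf_dvd_of_pow_eq_one h2
    rw [hjo] at this
    norm_num at this
  obtain ⟨l, rfl⟩ : Odd k := Int.not_even_iff_odd.1 fun h => hodd (even_iff_two_dvd.1 h)
  have hx : φ (i * j⁻¹) = 1 := by
    rw [map_mul, map_inv, hφj, zpow_add, zpow_mul, zpow_one,
      show φ i ^ (2 : ℤ) = 1 by rw [zpow_two, hφ2], one_zpow, one_mul, mul_inv_cancel]
  rw [Subgroup.mem_centralizer_iff]
  intro n hn
  have := congrArg Subtype.val (DFunLike.congr_fun hx (⟨n, hn⟩ : N))
  simp only [φ, MulAut.conjNormal_apply, MulAut.one_apply] at this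
  exact (mul_inv_eq_iff_eq_mul.1 this).symm

omit hnc [Group.IsSolvable X] in
/-- A group acting faithfully and coprimely on `V`, transitively on the elements `≠ 1` up to
powers, has only cyclic normal elementary abelian subgroups. -/
theorem normal_elementary_cyclic {V : Type*} [Group V] [Finite V] [Nontrivial V]
    (φ : X →* MulAut V) (hφ : Function.Injective φ) (hcop : (Nat.card X).Coprime (Nat.card V))
    (htrans : ∀ v w : V, v ≠ 1 → w ≠ 1 → ∃ x : X, φ x v ∈ Subgroup.zpowers w ∧
      w ∈ Subgroup.zpowers (φ x v))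
    (r : ℕ) [Fact r.Prime] (R : Subgroup X) (hR : R.Normal) (hRe : Cfsg.IsElementaryAbelian r R) :
    IsCyclic R := by
  by_contra hnc
  haveI := hRe.1
  let ψ : R →* MulAut V := φ.comp R.subtype
  let St : V → Subgroup X := fun v =>
    { carrier := {a | a ∈ R ∧ φ a v = v}
      mul_mem' := fun {a b} ha hb => ⟨mul_mem ha.1 hb.1, by
        rw [map_mul, MulAut.mul_apply, hb.2, ha.2]⟩
      one_mem' := ⟨one_mem R, by rw [map_one]; rfl⟩
      inv_mem' := fun {a} ha => ⟨inv_mem ha.1, by
        rw [map_inv, MulAut.inv_def, MulEquiv.symm_apply_eq, ha.2]⟩ }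
  have hSt : ∀ v a, a ∈ St v ↔ a ∈ R ∧ φ a v = v := fun _ _ => Iff.rfl
  have hzp : ∀ v w : V, w ∈ Subgroup.zpowers v → St v ≤ St w := by
    intro v w hw a ha
    obtain ⟨k, rfl⟩ := Subgroup.mem_zpowers_iff.1 hw
    exact ⟨ha.1, by rw [map_zpow, ha.2]⟩
  have hcard : ∀ v w : V, v ≠ 1 → w ≠ 1 → Nat.card (St v) = Nat.card (St w) := by
    intro v w hv hw
    obtain ⟨x, h1, h2⟩ := htrans v w hv hw
    have e : St w = (St v).map (MulAut.conj x).toMonoidHom := by
      rw [show St w = St (φ x v) from le_antisymm (hzp _ _ h1) (hzp _ _ h2)]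
      ext a
      simp only [Subgroup.mem_map, hSt]
      constructor
      · rintro ⟨haR, ha⟩
        refine ⟨x⁻¹ * a * x, ⟨by simpa using hR.conj_mem a haR x⁻¹, ?_⟩, by simp [mul_assoc]⟩
        simp only [map_mul, MulAut.mul_apply, ha, map_inv, MulAut.inv_def, MulEquiv.symm_apply_apply]
      · rintro ⟨b, ⟨hbR, hb⟩, rfl⟩
        refine ⟨by simpa using hR.conj_mem b hbR x, ?_⟩
        simp only [MulEquiv.coe_toMonoidHom, MulAut.conj_apply, map_mul, MulAut.mul_apply, map_inv,
          MulAut.inv_def, MulEquiv.symm_apply_apply, hb]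
    rw [e, Subgroup.card_map_of_injective (MulAut.conj x).injective]
  have hcopR : (Nat.card R).Coprime (Nat.card V) :=
    hcop.coprime_dvd_left (Subgroup.card_subgroup_dvd_card R)
  obtain ⟨v, hv, a, ha, ha1⟩ : ∃ v : V, v ≠ 1 ∧ ∃ a ∈ St v, a ≠ 1 := by
    by_contra hno
    push Not at hno
    have := H20.External.eq_top_of_fixedPoints_le ψ hnc hcopR (H := ⊥) fun a ha1 k hk =>
      Subgroup.mem_bot.2 (by_contra fun hk1 => ha1 (Subtype.ext (hno k hk1 a ⟨a.2, hk⟩)))
    exact bot_ne_top this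
  -- the points fixed by `St v`
  let W : Subgroup V :=
    { carrier := {w | ∀ b ∈ St v, φ b w = w}
      mul_mem' := fun {x y} hx hy b hb => by rw [map_mul, hx b hb, hy b hb]
      one_mem' := fun b _ => map_one _
      inv_mem' := fun {x} hx b hb => by rw [map_inv, hx b hb] }
  obtain ⟨w, hw⟩ : ∃ w, w ∉ W := by
    by_contra hall
    push Not at hall
    exact ha1 (hφ (by rw [map_one]; exact MulEquiv.ext fun w => hall w a ha))
  have hw1 : w ≠ 1 := fun h => hw (h ▸ one_mem W)
  have hinv : ∀ (u z : V) (b : X), b ∈ R → (∀ c ∈ St u, φ c z = z) →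
      ∀ c ∈ St u, φ c (φ b z) = φ b z := by
    intro u z b hb hz c hc
    have hcb : c * b = b * c := congrArg Subtype.val (mul_comm' (⟨c, hc.1⟩ : R) ⟨b, hb⟩)
    rw [← MulAut.mul_apply, ← map_mul, hcb, map_mul, MulAut.mul_apply, hz c hc]
  -- no point is fixed by both stabilisers
  have hjoint : ∀ z : V, (∀ c ∈ St v, φ c z = z) → (∀ c ∈ St w, φ c z = z) → z = 1 := by
    intro z hz1 hz2
    by_contra hz
    have h1 : St v ≤ St z := fun c hc => ⟨hc.1, hz1 c hc⟩
    have h2 : St w ≤ St z := fun c hc => ⟨hc.1, hz2 c hc⟩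
    have e1 := Subgroup.eq_of_le_of_card_ge h1 (hcard v z hv hz).ge
    have e2 := Subgroup.eq_of_le_of_card_ge h2 (hcard w z hw1 hz).ge
    exact hw fun b hb => (e2.trans e1.symm ▸ hb : b ∈ St w).2
  have hvW : v ∈ W := fun b hb => hb.2
  have hwW' : ∀ c ∈ St w, φ c w = w := fun c hc => hc.2
  have hvw : v * w ≠ 1 := fun h => hw (eq_inv_of_mul_eq_one_right h ▸ inv_mem hvW)
  have hle : St (v * w) ≤ St v := by
    intro b hb
    refine ⟨hb.1, ?_⟩
    have h1 : φ b v * φ b w = v * w := by rw [← map_mul]; exact hb.2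
    have h2 : v⁻¹ * φ b v = w * (φ b w)⁻¹ := by
      rw [eq_mul_inv_iff_mul_eq, mul_assoc, h1, inv_mul_cancel_left]
    have h3 := hjoint (v⁻¹ * φ b v)
      (fun c hc => by rw [map_mul, map_inv, hvW c hc, hinv v v b hb.1 hvW c hc])
      (fun c hc => by rw [h2, map_mul, map_inv, hwW' c hc, hinv w w b hb.1 hwW' c hc])
    exact (inv_mul_eq_one.1 h3).symm
  have e1 := Subgroup.eq_of_le_of_card_ge hle (hcard v (v * w) hv hvw).le
  refine hw fun b hb => ?_
  have hb' : b ∈ St (v * w) := e1.symm ▸ hb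
  have h4 : φ b (v * w) = v * w := hb'.2
  rw [map_mul, hvW b hb] at h4
  exact mul_left_cancel h4

omit hnc [Group.IsSolvable X] in
/-- If a normal subgroup `Q` leaves invariant every subgroup of one order strictly between `1` and
`|V|` of the elementary abelian `V`, its image in `Aut V` is commutative. -/
theorem comm_of_invariant_layer {V : Type*} [Group V] [Finite V] {p : ℕ} [Fact p.Prime]
    (hVc : ∀ a b : V, a * b = b * a) (hVe : ∀ a : V, a ^ p = 1) (φ : X →* MulAut V)
    {Q : Subgroup X} {s : ℕ} (hs : 1 ≤ s) (hlt : p ^ s < Nat.card V)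
    (hinv : ∀ U : Subgroup V, Nat.card U = p ^ s → ∀ q ∈ Q, ∀ u ∈ U, φ q u ∈ U) :
    ∀ a ∈ Q, ∀ b ∈ Q, φ a * φ b = φ b * φ a := by
  have hp : p.Prime := Fact.out
  have hVp : IsPGroup p V := fun a => ⟨1, by rw [pow_one]; exact hVe a⟩
  -- every element spans an invariant subgroup
  have hline : ∀ v : V, ∀ q ∈ Q, φ q v ∈ Subgroup.zpowers v := by
    have key : ∀ d : ℕ, d < s → ∀ U : Subgroup V, Nat.card U = p ^ (s - d) →
        ∀ q ∈ Q, ∀ u ∈ U, φ q u ∈ U := by
      intro d
      induction d with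
      | zero => intro _ U hU; exact hinv U (by simpa using hU)
      | succ d ih =>
        intro hd U hU q hq u hu
        have hex : ∀ (U : Subgroup V) (z : V), z ∉ U →
            Nat.card (U ⊔ Subgroup.zpowers z : Subgroup V) = Nat.card U * p := by
          intro U z hz
          haveI : U.Normal := ⟨fun n hn g => by rwa [hVc g n, mul_inv_cancel_right]⟩
          have hzo : orderOf z = p := orderOf_eq_prime (hVe z) fun h => hz (h ▸ one_mem U)
          refine le_antisymm (Nat.le_of_dvd (Nat.mul_pos Nat.card_pos hp.pos)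
            (by rw [← hzo, ← Nat.card_zpowers]; exact H19.card_sup_dvd U _)) ?_
          have hlt' : U < U ⊔ Subgroup.zpowers z := lt_of_le_of_ne le_sup_left fun h =>
            hz (h.ge (Subgroup.mem_sup_right (Subgroup.mem_zpowers z)))
          obtain ⟨a, ha⟩ := IsPGroup.iff_card.1 (hVp.to_subgroup U)
          obtain ⟨b, hb⟩ := IsPGroup.iff_card.1 (hVp.to_subgroup (U ⊔ Subgroup.zpowers z))
          have hab : p ^ a < p ^ b := by
            rw [← ha, ← hb]
            exact lt_of_le_of_ne (Nat.le_of_dvd Nat.card_pos (Subgroup.card_dvd_of_le hlt'.le))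
              fun h => hlt'.ne (Subgroup.eq_of_le_of_card_ge hlt'.le h.ge)
          rw [ha, hb, ← pow_succ]
          exact Nat.pow_le_pow_right hp.pos ((Nat.pow_lt_pow_iff_right hp.one_lt).1 hab)
        have hUlt : Nat.card U < Nat.card V := by
          rw [hU]; exact (Nat.pow_le_pow_right hp.pos (by omega)).trans_lt hlt
        obtain ⟨z, hz⟩ : ∃ z, z ∉ U := by
          by_contra hall
          push Not at hall
          rw [Subgroup.eq_top_iff' U |>.2 hall, Subgroup.card_top] at hUlt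
          exact lt_irrefl _ hUlt
        have hc1 := hex U z hz
        rw [hU, ← pow_succ] at hc1
        have h1lt : Nat.card (U ⊔ Subgroup.zpowers z : Subgroup V) < Nat.card V := by
          rw [hc1]; exact (Nat.pow_le_pow_right hp.pos (by omega)).trans_lt hlt
        obtain ⟨z', hz'⟩ : ∃ z', z' ∉ U ⊔ Subgroup.zpowers z := by
          by_contra hall
          push Not at hall
          rw [Subgroup.eq_top_iff' _ |>.2 hall, Subgroup.card_top] at h1lt
          exact lt_irrefl _ h1lt
        have hz'U : z' ∉ U := fun h => hz' (Subgroup.mem_sup_left h)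
        have hc2 := hex U z' hz'U
        rw [hU, ← pow_succ] at hc2
        have hinf : (U ⊔ Subgroup.zpowers z) ⊓ (U ⊔ Subgroup.zpowers z') = U := by
          refine (Subgroup.eq_of_le_of_card_ge (le_inf le_sup_left le_sup_left) ?_).symm
          obtain ⟨a, ha⟩ := IsPGroup.iff_card.1 (hVp.to_subgroup
            ((U ⊔ Subgroup.zpowers z) ⊓ (U ⊔ Subgroup.zpowers z')))
          rw [hU, ha]
          refine Nat.pow_le_pow_right hp.pos ?_
          have hle2 := Subgroup.card_dvd_of_le
            (inf_le_left : (U ⊔ Subgroup.zpowers z) ⊓ (U ⊔ Subgroup.zpowers z') ≤ _)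
          rw [ha, hc1, Nat.pow_dvd_pow_iff_le_right hp.one_lt] at hle2
          by_contra hgt
          have e : (U ⊔ Subgroup.zpowers z) ⊓ (U ⊔ Subgroup.zpowers z') = U ⊔ Subgroup.zpowers z :=
            Subgroup.eq_of_le_of_card_ge inf_le_left (by
              rw [hc1, ha]; exact Nat.pow_le_pow_right hp.pos (by omega))
          have e2 : U ⊔ Subgroup.zpowers z = U ⊔ Subgroup.zpowers z' :=
            Subgroup.eq_of_le_of_card_ge (inf_eq_left.1 e) (by rw [hc1, hc2])
          exact hz' (e2 ▸ Subgroup.mem_sup_right (Subgroup.mem_zpowers z'))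
        have hsd : s - (d + 1) + 1 = s - d := by omega
        rw [hsd] at hc1 hc2
        have := Subgroup.mem_inf.2
          ⟨ih (by omega) _ hc1 q hq u (Subgroup.mem_sup_left hu),
            ih (by omega) _ hc2 q hq u (Subgroup.mem_sup_left hu)⟩
        rwa [hinf] at this
    intro v q hq
    by_cases hv : v = 1
    · rw [hv, map_one]; exact one_mem _
    exact key (s - 1) (by omega) (Subgroup.zpowers v)
      (by rw [Nat.card_zpowers, orderOf_eq_prime (hVe v) hv, show s - (s - 1) = 1 by omega, pow_one])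
      q hq v (Subgroup.mem_zpowers v)
  intro a ha b hb
  refine MulEquiv.ext fun v => ?_
  obtain ⟨k, hk⟩ := Subgroup.mem_zpowers_iff.1 (hline v a ha)
  obtain ⟨l, hl⟩ := Subgroup.mem_zpowers_iff.1 (hline v b hb)
  simp only [MulAut.mul_apply]
  rw [← hl, ← hk, map_zpow, map_zpow, ← hk, ← hl, ← zpow_mul, ← zpow_mul, mul_comm]

end Cfsg.Agent.H33.ConjAb
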