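import Mathlib

/-! Finite facts about the alternating group of degree five, checked by the kernel. -/

set_option autoImplicit false

namespace Cfsg.Agent.H33.HJ

abbrev A5 := ↥(alternatingGroup (Fin 5))

lemma a5_move : ∀ i j k : Fin 5, i ≠ j → i ≠ k → j ≠ k →
    ∃ σ : A5, (σ : Equiv.Perm (Fin 5)) i = i ∧ (σ : Equiv.Perm (Fin 5)) j = j ∧
      (σ : Equiv.Perm (Fin 5)) k ≠ k := by decide +kernel

lemma a5_four : ∀ i j k l : Fin 5, i ≠ j → i ≠ k → i ≠ l → j ≠ k → j ≠ l → k ≠ l →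
    ∃ σ : A5, (σ : Equiv.Perm (Fin 5)) i = j ∧ (σ : Equiv.Perm (Fin 5)) j = i ∧
      (σ : Equiv.Perm (Fin 5)) k = k ∧ (σ : Equiv.Perm (Fin 5)) l ≠ l := by decide +kernel

lemma a5_invol : ∀ σ : A5, σ * σ = 1 → σ ≠ 1 →
    ∃ i : Fin 5, (σ : Equiv.Perm (Fin 5)) i = i ∧ (∀ j, j ≠ i → (σ : Equiv.Perm (Fin 5)) j ≠ j) ∧
      ∃ τ : A5, τ * τ * τ = 1 ∧ (σ * τ) * (σ * τ) * (σ * τ) = 1 ∧
        (τ : Equiv.Perm (Fin 5)) i = i := by decide +kernel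

lemma a5_card_invol : Nat.card {σ : A5 // σ * σ = 1 ∧ σ ≠ 1} = 15 := by
  rw [Nat.card_eq_fintype_card]; decide +kernel

lemma a5_card_pairs :
    Nat.card {p : A5 × A5 // p.1 * p.1 = 1 ∧ p.1 ≠ 1 ∧ p.2 * p.2 = 1 ∧
      (p.2 = p.1 ∨ p.1 * p.2 ≠ p.2 * p.1)} = 195 := by
  rw [Nat.card_eq_fintype_card]; decide +kernel

lemma a5_odd_iff : ∀ a b : A5, a * a = 1 → a ≠ 1 → b * b = 1 →
    ((a * b) ^ 15 = 1 ↔ b = a ∨ a * b ≠ b * a) := by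
  intro a b
  revert a
  suffices h : ∀ p : A5 × A5, p.1 * p.1 = 1 ∧ p.1 ≠ 1 ∧ p.2 * p.2 = 1 →
      decide ((p.1 * p.2) ^ 15 = 1) = decide (p.2 = p.1 ∨ p.1 * p.2 ≠ p.2 * p.1) by
    intro a ha ha1 hb
    exact decide_eq_decide.1 (h (a, b) ⟨ha, ha1, hb⟩)
  decide +kernel

end Cfsg.Agent.H33.HJ
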