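import Mathlib
import Cfsg.Agent.H33.HJPatternA5

/-!
An extraspecial group of order 32 with a faithful action of `A₅`: the count of involutions in the
cosets of the semidirect product, used for the order of a group with the Hall-Janko pattern.
-/

set_option autoImplicit false
set_option linter.style.haveILetI false

namespace Cfsg.Agent.H33.HJ

/-- Data: an extraspecial group `Q` of order 32 and a faithful action of `K ≅ A₅`. -/
structure Setup (Q K : Type*) [Group Q] [Group K] where
  z : Q
  act : K →* MulAut Q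
  equiv : K ≃* A5
  card : Nat.card Q = 32
  z_ne : z ≠ 1
  cen : ∀ x : Q, (∀ y, x * y = y * x) ↔ x = 1 ∨ x = z
  sq : ∀ x : Q, x * x = 1 ∨ x * x = z
  comm : ∀ x y : Q, x * y = y * x ∨ x * y = z * (y * x)
  faithful : Function.Injective act

namespace Setup

variable {Q K : Type*} [Group Q] [Group K] (S : Setup Q K)

include S in
lemma simple : IsSimpleGroup K := by
  haveI : Nontrivial K := S.equiv.toEquiv.nontrivial
  exact IsSimpleGroup.isSimpleGroup_of_surjective S.equiv.symm.toMonoidHom S.equiv.symm.surjective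

lemma z_comm (y : Q) : S.z * y = y * S.z := (S.cen S.z).2 (Or.inr rfl) y

lemma z_sq : S.z * S.z = 1 := (S.sq S.z).resolve_right fun h => S.z_ne (mul_eq_left.1 h)

lemma act_z (k : K) : S.act k S.z = S.z := by
  rcases (S.cen (S.act k S.z)).1 fun y => by
    obtain ⟨y', rfl⟩ := (S.act k).surjective y
    rw [← map_mul, ← map_mul, S.z_comm] with h | h
  · exact absurd ((S.act k).injective (h.trans (map_one _).symm)) S.z_ne
  · exact h

/-- Equality up to the centre. -/
def Eqv (x y : Q) : Prop := x = y ∨ x = y * S.z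

lemma eqv_refl (x : Q) : S.Eqv x x := Or.inl rfl

lemma eqv_symm {x y : Q} (h : S.Eqv x y) : S.Eqv y x := by
  rcases h with rfl | rfl
  · exact Or.inl rfl
  · exact Or.inr (by rw [mul_assoc, S.z_sq, mul_one])

lemma eqv_trans {x y w : Q} (h : S.Eqv x y) (h' : S.Eqv y w) : S.Eqv x w := by
  rcases h with rfl | rfl
  · exact h'
  · rcases h' with rfl | rfl
    · exact Or.inr rfl
    · exact Or.inl (by rw [mul_assoc, S.z_sq, mul_one])

lemma eqv_mul {x x' y y' : Q} (h : S.Eqv x x') (h' : S.Eqv y y') : S.Eqv (x * y) (x' * y') := by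
  rcases h with rfl | rfl <;> rcases h' with rfl | rfl
  · exact Or.inl rfl
  · exact Or.inr (mul_assoc _ _ _).symm
  · exact Or.inr (by rw [mul_assoc, S.z_comm, ← mul_assoc])
  · exact Or.inl (by
      rw [mul_assoc, ← mul_assoc S.z, S.z_comm, mul_assoc y', S.z_sq, mul_one])

lemma eqv_comm (x y : Q) : S.Eqv (x * y) (y * x) :=
  (S.comm x y).imp id fun h => h.trans (S.z_comm _)

lemma eqv_act (k : K) {x y : Q} (h : S.Eqv x y) : S.Eqv (S.act k x) (S.act k y) := by
  rcases h with rfl | rfl
  · exact Or.inl rfl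
  · exact Or.inr (by rw [map_mul, S.act_z])

lemma comm_eqv {x x' y : Q} (h : S.Eqv x x') (hc : x' * y = y * x') : x * y = y * x := by
  rcases h with rfl | rfl
  · exact hc
  · rw [mul_assoc, S.z_comm, ← mul_assoc, hc, mul_assoc]

/-- The noncentral involutions. -/
def IsI (u : Q) : Prop := u * u = 1 ∧ u ≠ 1 ∧ u ≠ S.z

lemma isI_act {u : Q} (k : K) (h : S.IsI u) : S.IsI (S.act k u) :=
  ⟨by rw [← map_mul, h.1, map_one],
    fun h' => h.2.1 ((S.act k).injective (h'.trans (map_one _).symm)),
    fun h' => h.2.2 ((S.act k).injective (h'.trans (S.act_z k).symm))⟩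

lemma isI_mul_z {u : Q} (h : S.IsI u) : S.IsI (u * S.z) :=
  ⟨by rw [mul_assoc, ← mul_assoc S.z, S.z_comm, mul_assoc u, S.z_sq, mul_one, h.1],
    fun h' => h.2.2 (by
      have := congrArg (· * S.z) h'
      simpa [mul_assoc, S.z_sq] using this),
    fun h' => h.2.1 (mul_eq_right.1 h')⟩

include S in
lemma finite : Finite Q := Nat.finite_of_card_ne_zero (by rw [S.card]; norm_num)

lemma five_fixed {g : K} (hg : orderOf g = 5) (x : Q) (hx : S.act g x = x) :
    x = 1 ∨ x = S.z := by
  haveI := S.finite
  haveI : Fact (Nat.Prime 5) := ⟨by norm_num⟩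
  have hP : IsPGroup 5 ↥(Subgroup.zpowers g) :=
    IsPGroup.of_card (n := 1) (by rw [Nat.card_zpowers, hg, pow_one])
  letI : MulAction ↥(Subgroup.zpowers g) Q :=
    MulAction.compHom Q (S.act.comp (Subgroup.zpowers g).subtype)
  set C : Subgroup Q :=
    { carrier := {y | S.act g y = y}
      mul_mem' := fun {a b} (ha : _ = a) (hb : _ = b) => show _ = _ by rw [map_mul, ha, hb]
      one_mem' := map_one _
      inv_mem' := fun {a} (ha : _ = a) => show _ = _ by rw [map_inv, ha] } with hC
  have hfix : ∀ y, y ∈ MulAction.fixedPoints ↥(Subgroup.zpowers g) Q ↔ y ∈ C := by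
    intro y
    refine ⟨fun h => h ⟨g, Subgroup.mem_zpowers g⟩, fun h a => ?_⟩
    have hs : Subgroup.zpowers g ≤ (MulAction.stabilizer (MulAut Q) y).comap S.act :=
      Subgroup.zpowers_le.2 h
    exact hs a.2
  have hmod := hP.card_modEq_card_fixedPoints (α := Q)
  rw [Nat.card_congr (Equiv.subtypeEquivRight hfix : ↥(MulAction.fixedPoints _ Q) ≃ ↥C), S.card]
    at hmod
  obtain ⟨j, hj, hCj⟩ := (Nat.dvd_prime_pow Nat.prime_two).1
    (show Nat.card C ∣ 2 ^ 5 by rw [show (2 : ℕ) ^ 5 = 32 from rfl, ← S.card]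
                                exact C.card_subgroup_dvd_card)
  rw [hCj] at hmod
  by_contra hne
  have hzC : S.z ∈ C := S.act_z g
  have h2 : 2 < Nat.card C := by
    classical
    haveI := Fintype.ofFinite Q
    have hsub : ({1, S.z, x} : Finset Q) ⊆ Finset.univ.filter (· ∈ C) := by
      simp [Finset.insert_subset_iff, hzC, C.one_mem, show x ∈ C from hx]
    have := Finset.card_le_card hsub
    rw [Finset.card_eq_three.2 ⟨1, S.z, x, S.z_ne.symm, fun h => hne (Or.inl h.symm),
      fun h => hne (Or.inr h.symm), rfl⟩] at this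
    rw [Nat.card_eq_fintype_card, Fintype.card_subtype]
    omega
  rw [hCj] at h2
  have htop : C = ⊤ := by
    refine C.eq_top_of_card_eq ?_
    rw [hCj, S.card]
    interval_cases j <;> first | rfl | simp_all [Nat.ModEq]
  have : g = 1 := S.faithful (by
    refine MulEquiv.ext fun y => ?_
    rw [map_one, MulAut.one_apply]
    exact (htop ▸ Subgroup.mem_top y : y ∈ C))
  rw [this, orderOf_one] at hg
  norm_num at hg

lemma card_isI : Nat.card {u : Q // S.IsI u} = 10 := by
  classical
  haveI := S.finite
  haveI : Fintype Q := Fintype.ofFinite Q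
  haveI : Fact (Nat.Prime 5) := ⟨by norm_num⟩
  have hcard : Fintype.card Q = 32 := by rw [← Nat.card_eq_fintype_card, S.card]
  let f : Q → ℤ := fun x => if x * x = 1 then 1 else -1
  let c : Q → Q → ℤ := fun x y => if x * y = y * x then 1 else -1
  have hzne : S.z ≠ 1 := S.z_ne
  have hf : ∀ x y, f (x * y) = f x * f y * c x y := by
    intro x y
    have key : (x * y) * (x * y) =
        (x * x) * (y * y) * if x * y = y * x then 1 else S.z := by
      split
      · next h => rw [mul_one]
                  calc x * y * (x * y) = x * (y * x) * y := by group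
                    _ = x * (x * y) * y := by rw [h]
                    _ = x * x * (y * y) := by group
      · next h =>
        have h' := (S.comm y x).resolve_left (Ne.symm h)
        calc x * y * (x * y) = x * (y * x) * y := by group
          _ = x * (S.z * (x * y)) * y := by rw [h']
          _ = x * S.z * (x * (y * y)) := by group
          _ = S.z * x * (x * (y * y)) := by rw [S.z_comm x]
          _ = S.z * (x * x * (y * y)) := by group
          _ = _ := S.z_comm _
    simp only [f, c, key]
    rcases S.sq x with hx | hx <;> rcases S.sq y with hy | hy <;> rw [hx, hy] <;>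
      split <;> simp [S.z_sq, hzne]
  have hc : ∀ d, ∑ x, c x d = if d = 1 ∨ d = S.z then 32 else 0 := by
    intro d
    split
    · next h =>
      have : ∀ x, c x d = 1 := fun x => if_pos (((S.cen d).2 h x).symm)
      simp [this, hcard]
    · next h =>
      obtain ⟨w, hw⟩ := not_forall.1 (mt (S.cen d).1 h)
      have hflip : ∀ x, c (x * w) d = - c x d := by
        intro x
        have hwd : w * d = S.z * (d * w) := (S.comm w d).resolve_left (Ne.symm hw)
        have e : x * w * d = S.z * (x * d * w) := by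
          rw [mul_assoc, hwd, ← mul_assoc, ← S.z_comm x, mul_assoc, ← mul_assoc x d w]
        simp only [c]
        rcases S.comm x d with hxd | hxd
        · rw [if_pos hxd, if_neg]
          intro h1
          rw [e, hxd, ← mul_assoc d x w] at h1
          exact hzne (mul_eq_right.1 h1)
        · have hne' : x * d ≠ d * x := fun h' => hzne (by
            rw [h'] at hxd; exact mul_eq_right.1 hxd.symm)
          rw [if_neg hne', if_pos]
          · norm_num
          · rw [e, hxd, mul_assoc S.z, ← mul_assoc S.z S.z, S.z_sq, one_mul, ← mul_assoc d x w]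
      have h1 : ∑ x, c (x * w) d = ∑ x, c x d := Equiv.sum_comp (Equiv.mulRight w) fun x => c x d
      simp only [hflip, Finset.sum_neg_distrib] at h1
      omega
  have hS : (∑ x, f x) * (∑ x, f x) = 64 := by
    calc (∑ x, f x) * (∑ x, f x) = ∑ x, ∑ d, f x * f (x * d) := by
          rw [Finset.sum_mul_sum]
          exact Finset.sum_congr rfl fun x _ =>
            (Equiv.sum_comp (Equiv.mulLeft x) fun y => f x * f y).symm
      _ = ∑ d, f d * ∑ x, c x d := by
          rw [Finset.sum_comm]
          refine Finset.sum_congr rfl fun d _ => ?_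
          rw [Finset.mul_sum]
          refine Finset.sum_congr rfl fun x _ => ?_
          have hff : f x * f x = 1 := by simp only [f]; split <;> norm_num
          rw [hf]; linear_combination (f d * c x d) * hff
      _ = ∑ d, if d = 1 ∨ d = S.z then (32 : ℤ) else 0 := by
          refine Finset.sum_congr rfl fun d _ => ?_
          rw [hc]
          split
          · next h =>
            have : f d = 1 := by rcases h with rfl | rfl <;> simp [f, S.z_sq]
            simp [this]
          · simp
      _ = 64 := by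
          rw [← Finset.sum_filter, show (Finset.univ.filter fun d => d = 1 ∨ d = S.z) =
            ({1, S.z} : Finset Q) by ext; simp, Finset.sum_pair hzne.symm]
          norm_num
  set A := Finset.univ.filter (fun x : Q => x * x = 1) with hA
  have hsum : (∑ x, f x) = 2 * (A.card : ℤ) - 32 := by
    have h1 : ∀ x, f x = 2 * (if x * x = 1 then (1 : ℤ) else 0) - 1 := by
      intro x; simp only [f]; split <;> norm_num
    simp only [h1, Finset.sum_sub_distrib, ← Finset.mul_sum, Finset.sum_boole]
    simp [hA, hcard]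
  have hA2 : (A.card : ℤ) = 20 ∨ (A.card : ℤ) = 12 := by
    rw [hsum] at hS
    have : (2 * (A.card : ℤ) - 40) * (2 * (A.card : ℤ) - 24) = 0 := by linarith
    rcases mul_eq_zero.1 this with h | h <;> omega
  have hdisj : Disjoint (Finset.univ.filter fun x : Q => S.IsI x) ({1, S.z} : Finset Q) := by
    rw [Finset.disjoint_left]
    intro a ha hb
    simp only [Finset.mem_filter, Finset.mem_univ, true_and] at ha
    simp only [Finset.mem_insert, Finset.mem_singleton] at hb
    rcases hb with rfl | rfl
    · exact ha.2.1 rfl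
    · exact ha.2.2 rfl
  have hI : Nat.card {u : Q // S.IsI u} + 2 = A.card := by
    rw [Nat.card_eq_fintype_card, Fintype.card_subtype,
      show (2 : ℕ) = ({1, S.z} : Finset Q).card from (Finset.card_pair hzne.symm).symm,
      ← Finset.card_union_of_disjoint hdisj]
    congr 1
    ext a
    simp only [hA, Finset.mem_union, Finset.mem_filter, Finset.mem_univ, true_and,
      Finset.mem_insert, Finset.mem_singleton]
    refine ⟨?_, fun h => ?_⟩
    · rintro (h | rfl | rfl)
      · exact h.1
      · exact one_mul 1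
      · exact S.z_sq
    · by_cases h' : a = 1 ∨ a = S.z
      · exact Or.inr h'
      · exact Or.inl ⟨h, fun e => h' (Or.inl e), fun e => h' (Or.inr e)⟩
  obtain ⟨g0, hg0⟩ := exists_prime_orderOf_dvd_card' (G := A5) 5 (by
    rw [Nat.card_eq_fintype_card]; decide +kernel)
  set g := S.equiv.symm g0
  have hg : orderOf g = 5 := by rw [MulEquiv.orderOf_eq, hg0]
  have hP : IsPGroup 5 ↥(Subgroup.zpowers g) :=
    IsPGroup.of_card (n := 1) (by rw [Nat.card_zpowers, hg, pow_one])
  letI : MulAction ↥(Subgroup.zpowers g) {u : Q // S.IsI u} :=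
    { smul := fun a u => ⟨S.act a u.1, S.isI_act _ u.2⟩
      one_smul := fun u => Subtype.ext (by
        show S.act ((1 : ↥(Subgroup.zpowers g)) : K) u.1 = u.1
        rw [Subgroup.coe_one, map_one, MulAut.one_apply])
      mul_smul := fun a b u => Subtype.ext (by
        show S.act ((a * b : ↥(Subgroup.zpowers g)) : K) u.1 = S.act a (S.act b u.1)
        rw [Subgroup.coe_mul, map_mul, MulAut.mul_apply]) }
  have hmod := hP.card_modEq_card_fixedPoints (α := {u : Q // S.IsI u})
  haveI : IsEmpty ↥(MulAction.fixedPoints ↥(Subgroup.zpowers g) {u : Q // S.IsI u}) :=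
    ⟨fun ⟨u, hu⟩ => by
      rcases S.five_fixed hg u.1 (congrArg Subtype.val (hu ⟨g, Subgroup.mem_zpowers g⟩)) with h | h
      · exact u.2.2.1 h
      · exact u.2.2.2 h⟩
  rw [Nat.card_of_isEmpty (α := ↥(MulAction.fixedPoints ↥(Subgroup.zpowers g) {u : Q // S.IsI u}))]
    at hmod
  simp only [Nat.ModEq] at hmod
  omega

/-- The five pairs, with the action of `K` on them. -/
lemma exists_labelling : ∃ (u : Fin 5 → Q) (ψ : K →* Equiv.Perm (Fin 5)),
    (∀ i, S.IsI (u i)) ∧ (∀ i j, S.Eqv (u i) (u j) → i = j) ∧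
      (∀ w, S.IsI w → ∃ i, S.Eqv w (u i)) ∧
      (∀ k i, S.Eqv (S.act k (u i)) (u (ψ k i))) ∧
      ∀ σ : A5, ∃ k, ψ k = (σ : Equiv.Perm (Fin 5)) := by
  classical
  haveI := S.finite
  obtain ⟨g0, hg0⟩ := exists_prime_orderOf_dvd_card' (G := A5) 5 (hp := ⟨by norm_num⟩) (by
    rw [Nat.card_eq_fintype_card]; decide +kernel)
  set g := S.equiv.symm g0
  have hg : orderOf g = 5 := by rw [MulEquiv.orderOf_eq, hg0]
  obtain ⟨⟨u0, hu0⟩⟩ : Nonempty {u : Q // S.IsI u} :=
    (Nat.card_pos_iff.1 (by rw [S.card_isI]; norm_num)).1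
  let u : Fin 5 → Q := fun i => S.act (g ^ (i : ℕ)) u0
  have hfree : ∀ n : ℕ, S.Eqv (S.act (g ^ n) u0) u0 → 5 ∣ n := by
    intro n h
    by_contra hn
    have h2 : S.act (g ^ (2 * n)) u0 = u0 := by
      rw [two_mul, pow_add, map_mul, MulAut.mul_apply]
      rcases h with h | h
      · rw [h, h]
      · rw [h, map_mul, S.act_z, h, mul_assoc, S.z_sq, mul_one]
    have hcop : Nat.Coprime (orderOf g) (2 * n) := by
      rw [hg, Nat.Prime.coprime_iff_not_dvd (by norm_num)]
      omega
    rcases S.five_fixed (hcop.orderOf_pow.trans hg) u0 h2 with h' | h'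
    · exact hu0.2.1 h'
    · exact hu0.2.2 h'
  have hinj : ∀ i j, S.Eqv (u i) (u j) → i = j := by
    suffices ∀ i j : Fin 5, (i : ℕ) ≤ j → S.Eqv (u j) (u i) → i = j by
      intro i j h
      rcases le_total (i : ℕ) j with hle | hle
      · exact this i j hle (S.eqv_symm h)
      · exact (this j i hle h).symm
    intro i j hle h
    have h' := S.eqv_act (g ^ (i : ℕ))⁻¹ h
    simp only [u, ← MulAut.mul_apply, ← map_mul, inv_mul_cancel, map_one, MulAut.one_apply] at h'
    rw [show (g ^ (i : ℕ))⁻¹ * g ^ (j : ℕ) = g ^ ((j : ℕ) - i) by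
      rw [inv_mul_eq_iff_eq_mul, ← pow_add, Nat.add_sub_cancel' hle]] at h'
    have := hfree _ h'
    apply Fin.ext
    have := i.isLt; have := j.isLt
    omega
  have hI : ∀ i, S.IsI (u i) := fun i => S.isI_act _ hu0
  have hall : ∀ w, S.IsI w → ∃ i, S.Eqv w (u i) := by
    let F : Fin 5 × Bool → {w : Q // S.IsI w} := fun p =>
      if p.2 then ⟨u p.1 * S.z, S.isI_mul_z (hI p.1)⟩ else ⟨u p.1, hI p.1⟩
    have hF : Function.Injective F := by
      rintro ⟨i, a⟩ ⟨j, b⟩ h
      have hij : i = j := hinj i j (by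
        cases a <;> cases b <;> simp only [F, Subtype.mk.injEq, if_true, if_false,
          Bool.false_eq_true] at h
        · exact Or.inl h
        · exact Or.inr h
        · exact Or.inr (by rw [← h, mul_assoc, S.z_sq, mul_one])
        · exact Or.inl (mul_right_cancel h))
      subst hij
      cases a <;> cases b <;> simp [F, S.z_ne] at h ⊢
    have hFb : Function.Bijective F := hF.bijective_of_nat_card_le (by
      rw [S.card_isI, Nat.card_prod, Nat.card_eq_fintype_card, Nat.card_eq_fintype_card]; rfl)
    intro w hw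
    obtain ⟨⟨i, b⟩, hb⟩ := hFb.2 ⟨w, hw⟩
    refine ⟨i, ?_⟩
    have := congrArg Subtype.val hb
    cases b <;> simp [F] at this
    · exact Or.inl this.symm
    · exact Or.inr this.symm
  have hex : ∀ k i, ∃ j, S.Eqv (S.act k (u i)) (u j) := fun k i => hall _ (S.isI_act k (hI i))
  choose f hf using hex
  have hfmul : ∀ k l i, f (k * l) i = f k (f l i) := fun k l i => hinj _ _ (by
    refine S.eqv_trans (S.eqv_symm (hf (k * l) i)) ?_
    rw [map_mul, MulAut.mul_apply]
    exact S.eqv_trans (S.eqv_act k (hf l i)) (hf k _))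
  have hfone : ∀ i, f 1 i = i := fun i => (hinj _ _ (by
    have := hf 1 i; rwa [map_one, MulAut.one_apply] at this)).symm
  let ψ : K →* Equiv.Perm (Fin 5) := MonoidHom.mk' (fun k =>
    ⟨f k, f k⁻¹, fun i => by rw [← hfmul, inv_mul_cancel, hfone],
      fun i => by rw [← hfmul, mul_inv_cancel, hfone]⟩) (fun k l => Equiv.ext (hfmul k l))
  refine ⟨u, ψ, hI, hinj, hall, hf, ?_⟩
  haveI : IsSimpleGroup K := S.simple
  have hψ : Function.Injective ψ := by
    rw [← MonoidHom.ker_eq_bot_iff]
    refine ((MonoidHom.normal_ker ψ).eq_bot_or_eq_top).resolve_right fun h => ?_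
    have hk : ψ g = 1 := MonoidHom.mem_ker.1 (h ▸ Subgroup.mem_top g)
    have h0 := hf g 0
    rw [show f g 0 = (ψ g) 0 from rfl, hk, Equiv.Perm.one_apply] at h0
    have := hfree 1 (by simpa [u] using h0)
    omega
  have hrange : ψ.range = alternatingGroup (Fin 5) := by
    refine Equiv.Perm.eq_alternatingGroup_of_index_eq_two ?_
    have h1 : Nat.card ψ.range = 60 := by
      rw [← Nat.card_congr (MonoidHom.ofInjective hψ).toEquiv, Nat.card_congr S.equiv.toEquiv,
        Nat.card_eq_fintype_card]
      decide +kernel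
    have h2 := ψ.range.card_mul_index
    rw [h1, Nat.card_perm, Nat.card_eq_fintype_card, Fintype.card_fin] at h2
    norm_num [Nat.factorial] at h2
    omega
  exact fun σ => hrange.ge σ.2

/-- Commuting noncentral involutions are equal up to the centre. -/
lemma eqv_of_comm {x y : Q} (hx : S.IsI x) (hy : S.IsI y) (h : x * y = y * x) : S.Eqv x y := by
  obtain ⟨u, ψ, hI, hinj, hall, hf, hsur⟩ := S.exists_labelling
  obtain ⟨i, hi⟩ := hall x hx
  obtain ⟨j, hj⟩ := hall y hy
  by_contra hxy
  have hij : i ≠ j := fun e => hxy (by subst e; exact S.eqv_trans hi (S.eqv_symm hj))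
  have hw : S.IsI (x * y) := by
    refine ⟨?_, fun e => hxy ?_, fun e => hxy ?_⟩
    · calc x * y * (x * y) = x * (y * x) * y := by group
        _ = x * x * (y * y) := by rw [← h]; group
        _ = 1 := by rw [hx.1, hy.1, one_mul]
    · exact Or.inl (by rw [eq_inv_of_mul_eq_one_left e, inv_eq_of_mul_eq_one_right hy.1])
    · exact Or.inr (by rw [← e, ← mul_assoc, ← h, mul_assoc, hy.1, mul_one])
  obtain ⟨k, hk⟩ := hall _ hw
  have hk' : S.Eqv (u i * u j) (u k) := S.eqv_trans (S.eqv_symm (S.eqv_mul hi hj)) hk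
  have hik : i ≠ k := by
    rintro rfl
    rcases hk' with e | e
    · exact (hI j).2.1 (mul_eq_left.1 e)
    · exact (hI j).2.2 (mul_left_cancel e)
  have hjk : j ≠ k := by
    rintro rfl
    rcases hk' with e | e
    · exact (hI i).2.1 (mul_eq_right.1 e)
    · rw [← S.z_comm] at e; exact (hI i).2.2 (mul_right_cancel e)
  obtain ⟨σ, h1, h2, h3⟩ := a5_move i j k hij hik hjk
  obtain ⟨κ, hκ⟩ := hsur σ
  refine h3 (hinj k _ (S.eqv_trans (S.eqv_symm hk') ?_)).symm
  have h4 := S.eqv_act κ hk'
  have h5 := hf κ i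
  have h6 := hf κ j
  rw [hκ, h1] at h5
  rw [hκ, h2] at h6
  rw [map_mul] at h4
  refine S.eqv_trans (S.eqv_symm (S.eqv_mul h5 h6)) (S.eqv_trans h4 ?_)
  have h7 := hf κ k
  rwa [hκ] at h7

/-- The counts in the coset of an involution of `K`. -/
theorem coset_count {κ : K} (hκ : κ * κ = 1) (hκ1 : κ ≠ 1) :
    Nat.card {q : Q // S.act κ q = q⁻¹} = 8 ∧
      ∀ q : Q, S.act κ q = q⁻¹ →
        Nat.card {w : Q // S.IsI w ∧ S.act κ (q * w * q⁻¹) ≠ w} = 8 := by
  classical
  haveI := S.finite
  haveI : Fintype Q := Fintype.ofFinite Q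
  obtain ⟨u, ψ, hI, hinj, hall, hf, hsur⟩ := S.exists_labelling
  have hψinj : Function.Injective ψ := by
    rw [← MonoidHom.ker_eq_bot_iff]
    haveI : IsSimpleGroup K := S.simple
    refine ((MonoidHom.normal_ker ψ).eq_bot_or_eq_top).resolve_right fun h => ?_
    obtain ⟨σ, -, -, h3⟩ := a5_move 0 1 2 (by decide) (by decide) (by decide)
    obtain ⟨k, hk⟩ := hsur σ
    rw [← hk, MonoidHom.mem_ker.1 (h ▸ Subgroup.mem_top k), Equiv.Perm.one_apply] at h3
    exact h3 rfl
  obtain ⟨σ, hσ⟩ : ∃ σ : A5, (σ : Equiv.Perm (Fin 5)) = ψ κ := by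
    refine ⟨⟨ψ κ, ?_⟩, rfl⟩
    obtain ⟨e, he⟩ := S.equiv.symm.surjective κ
    have hr : ∀ k, Equiv.Perm.sign (ψ k) = 1 := by
      haveI : IsSimpleGroup K := S.simple
      intro k
      rcases (MonoidHom.normal_ker (Equiv.Perm.sign.comp ψ)).eq_bot_or_eq_top with h | h
      · exfalso
        have h1 := Nat.card_le_card_of_injective _ ((MonoidHom.ker_eq_bot_iff _).1 h)
        rw [Nat.card_congr S.equiv.toEquiv, Nat.card_eq_fintype_card, Nat.card_eq_fintype_card,
          Fintype.card_units_int, show Fintype.card A5 = 60 by decide +kernel] at h1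
        omega
      · exact MonoidHom.mem_ker.1 (h ▸ Subgroup.mem_top k :)
    exact hr κ
  have hσ2 : σ * σ = 1 := Subtype.ext (by rw [Subgroup.coe_mul, hσ, ← map_mul, hκ, map_one]; rfl)
  have hσ1 : σ ≠ 1 := fun h => hκ1 (hψinj (by rw [← hσ, h, map_one]; rfl))
  obtain ⟨i, hi, hmove, τ, hτ3, hστ3, hτi⟩ := a5_invol σ hσ2 hσ1
  -- elements of order 3 fix the involutions of the fixed pair
  have h3fix : ∀ k : K, k * k * k = 1 → ψ k i = i → S.act k (u i) = u i := by
    intro k hk hki
    have h := hf k i
    rw [hki] at h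
    rcases h with h | h
    · exact h
    · exfalso
      have h' : S.act (k * k * k) (u i) = u i * S.z := by
        rw [map_mul, map_mul, MulAut.mul_apply, MulAut.mul_apply, h, map_mul, S.act_z, h,
          mul_assoc, S.z_sq, mul_one, h]
      rw [hk, map_one, MulAut.one_apply] at h'
      exact S.z_ne (mul_eq_left.1 h'.symm)
  obtain ⟨kτ, hkτ⟩ := hsur τ
  have hκu : S.act κ (u i) = u i := by
    have e1 := h3fix kτ (hψinj (by
      rw [map_mul, map_mul, hkτ, map_one]; exact congrArg Subtype.val hτ3)) (by rw [hkτ, hτi])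
    have e2 := h3fix (κ * kτ) (hψinj (by
      rw [map_mul, map_mul, map_mul, map_one, hkτ, ← hσ]; exact congrArg Subtype.val hστ3))
      (by rw [map_mul, hkτ, Equiv.Perm.mul_apply, hτi, ← hσ, hi])
    rwa [map_mul, MulAut.mul_apply, e1] at e2
  have hsq : ∀ j, ψ κ (ψ κ j) = j := fun j => by
    rw [← Equiv.Perm.mul_apply, ← map_mul, hκ, map_one, Equiv.Perm.one_apply]
  have hnei : ∀ j, j ≠ i → ψ κ j ≠ i ∧ ψ κ j ≠ j := fun j hj =>
    ⟨fun e => hj (by rw [← hsq j, e, ← hσ, hi]), hσ ▸ hmove j hj⟩
  -- a set of representatives of the fixed classes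
  obtain ⟨a, ha⟩ : ∃ a, a ≠ i := exists_ne i
  obtain ⟨b, hb⟩ : ∃ b, b ≠ i ∧ b ≠ a ∧ b ≠ ψ κ a := by
    have h := Finset.card_le_three (a := i) (b := a) (c := ψ κ a)
    have h1 : ({i, a, ψ κ a} : Finset (Fin 5)) ≠ Finset.univ := fun e => by
      rw [e] at h; simp at h
    obtain ⟨b, hb⟩ : ∃ b, b ∉ ({i, a, ψ κ a} : Finset (Fin 5)) := by
      by_contra h2
      push Not at h2
      exact h1 (Finset.eq_univ_of_forall h2)
    exact ⟨b, by simpa [not_or] using hb⟩
  set a' := ψ κ a with ha'
  set b' := ψ κ b with hb'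
  have hab' : b' ≠ a ∧ b' ≠ a' :=
    ⟨fun e => hb.2.2 (by rw [ha', ← e, hb', hsq]),
      fun e => hb.2.1 ((ψ κ).injective e)⟩
  have hAa := hnei a ha
  have hBb := hnei b hb.1
  let r : Fin 4 → Q := ![1, u i, u a * u a', u b * u b']
  have hu_comm : ∀ j k, u j * u k = u k * u j → j = k := fun j k h =>
    hinj j k (S.eqv_of_comm (hI j) (hI k) h)
  have hpair_sq : ∀ j k, j ≠ k → (u j * u k) * (u j * u k) = S.z := by
    intro j k hjk
    refine (S.sq _).resolve_left fun h => hjk (hu_comm j k ?_)
    rw [eq_inv_of_mul_eq_one_left h, mul_inv_rev, inv_eq_of_mul_eq_one_right (hI j).1,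
      inv_eq_of_mul_eq_one_right (hI k).1]
  have hinv : ∀ c : Bool, ∀ m : Fin 4,
      S.act κ (r m * if c then S.z else 1) = (r m * if c then S.z else 1)⁻¹ := by
    have hpair : ∀ j, j ≠ i → S.act κ (u j * u (ψ κ j)) = (u j * u (ψ κ j))⁻¹ := by
      intro j hj
      have h1 := hf κ j
      have hkk : S.act κ (S.act κ (u j)) = u j := by
        rw [← MulAut.mul_apply, ← map_mul, hκ, map_one, MulAut.one_apply]
      rw [mul_inv_rev, inv_eq_of_mul_eq_one_right (hI j).1,
        inv_eq_of_mul_eq_one_right (hI _).1, map_mul]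
      rcases h1 with e | e
      · rw [e]; congr 1; rw [← e, hkk]
      · rw [e, show S.act κ (u (ψ κ j)) = u j * S.z by
          rw [show u (ψ κ j) = S.act κ (u j) * S.z by rw [e, mul_assoc, S.z_sq, mul_one],
            map_mul, S.act_z, hkk]]
        rw [mul_assoc, ← mul_assoc S.z, S.z_comm, mul_assoc (u j), S.z_sq, mul_one]
    intro c m
    have hr : S.act κ (r m) = (r m)⁻¹ := by
      fin_cases m <;> simp only [r, Matrix.cons_val_zero, Matrix.cons_val_one, Matrix.cons_val,
        Matrix.cons_val', Fin.isValue, Fin.mk_one, Fin.zero_eta, Fin.reduceFinMk]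
      · simp
      · rw [hκu, inv_eq_of_mul_eq_one_right (hI i).1]
      · exact hpair a ha
      · exact hpair b hb.1
    cases c
    · simpa using hr
    · simp only [if_true, map_mul, hr, S.act_z, mul_inv_rev, inv_eq_of_mul_eq_one_right S.z_sq]
      exact (S.z_comm _).symm
  -- every element is central times one of `1, u j, u j * u k`
  have hcanon : ∀ q : Q, S.Eqv q 1 ∨ (∃ j, S.Eqv q (u j)) ∨
      ∃ j k, j ≠ k ∧ S.Eqv q (u j * u k) := by
    let F : Option (Fin 5 ⊕ {p : Fin 5 × Fin 5 // p.1 < p.2}) × Bool → Q := fun x =>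
      (match x.1 with
        | none => 1
        | some (.inl j) => u j
        | some (.inr p) => u p.1.1 * u p.1.2) * if x.2 then S.z else 1
    have hFinj : ∀ x y, F x = F y → x = y := by
      have key : ∀ (j : Fin 5) (p : {p : Fin 5 × Fin 5 // p.1 < p.2}),
          ¬ S.Eqv (u p.1.1 * u p.1.2) (u j) ∧ ¬ S.Eqv (u p.1.1 * u p.1.2) 1 := by
        intro j p
        have hp : p.1.1 ≠ p.1.2 := p.2.ne
        have h := hpair_sq _ _ hp
        constructor <;> intro e
        · rcases e with e | e
          · rw [e, (hI j).1] at h; exact S.z_ne h.symm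
          · rw [e, (S.isI_mul_z (hI j)).1] at h; exact S.z_ne h.symm
        · rcases e with e | e
          · rw [e, one_mul] at h; exact S.z_ne h.symm
          · rw [e, one_mul, S.z_sq] at h; exact S.z_ne h.symm
      have key2 : ∀ j, ¬ S.Eqv (u j) 1 := fun j e => by
        rcases e with e | e
        · exact (hI j).2.1 e
        · exact (hI j).2.2 (by rw [e, one_mul])
      have key3 : ∀ p p' : {p : Fin 5 × Fin 5 // p.1 < p.2},
          S.Eqv (u p.1.1 * u p.1.2) (u p'.1.1 * u p'.1.2) → p = p' := by
        intro ⟨⟨i₁, j₁⟩, h₁⟩ ⟨⟨i₂, j₂⟩, h₂⟩ h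
        simp only at h h₁ h₂
        have cl : ∀ x y w, S.Eqv (u x * u y) (u x * u w) → y = w := fun x y w e => hinj _ _ (by
          rcases e with e | e
          · exact Or.inl (mul_left_cancel e)
          · exact Or.inr (mul_left_cancel (e.trans (mul_assoc _ _ _))))
        by_cases e1 : i₁ = i₂
        · subst e1; obtain rfl := cl _ _ _ h; rfl
        by_cases e2 : i₁ = j₂
        · subst e2
          obtain rfl := cl _ _ _ (S.eqv_trans h (S.eqv_comm _ _))
          omega
        by_cases e3 : j₁ = i₂
        · subst e3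
          obtain rfl := cl _ _ _ (S.eqv_trans (S.eqv_comm _ _) h)
          omega
        by_cases e4 : j₁ = j₂
        · subst e4
          exact absurd (cl _ _ _ (S.eqv_trans (S.eqv_comm _ _) (S.eqv_trans h (S.eqv_comm _ _)))) e1
        exfalso
        obtain ⟨σ', s1, s2, s3, s4⟩ := a5_four i₁ j₁ i₂ j₂ h₁.ne e1 e2 e3 e4 h₂.ne
        obtain ⟨k', hk'⟩ := hsur σ'
        have t := S.eqv_act k' h
        rw [map_mul, map_mul] at t
        have f1 := hf k' i₁
        have f2 := hf k' j₁
        have f3 := hf k' i₂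
        have f4 := hf k' j₂
        rw [hk', s1] at f1; rw [hk', s2] at f2; rw [hk', s3] at f3; rw [hk'] at f4
        exact s4 (cl _ _ _ (S.eqv_trans (S.eqv_symm h) (S.eqv_trans (S.eqv_comm _ _)
          (S.eqv_trans (S.eqv_symm (S.eqv_mul f1 f2)) (S.eqv_trans t (S.eqv_mul f3 f4)))))).symm
      intro ⟨x, c⟩ ⟨y, c'⟩ h
      have he : ∀ w (d : Bool), S.Eqv (w * if d then S.z else 1) w := by
        intro w d; cases d
        · exact Or.inl (mul_one w)
        · exact Or.inr rfl
      have hxy : x = y := by
        have h' := S.eqv_trans (S.eqv_symm (he _ c)) (S.eqv_trans (Or.inl h) (he _ c'))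
        rcases x with _ | j | p <;> rcases y with _ | j' | p' <;> simp only at h'
        · rfl
        · exact absurd (S.eqv_symm h') (key2 j')
        · exact absurd (S.eqv_symm h') (key 0 p').2
        · exact absurd h' (key2 j)
        · rw [hinj j j' h']
        · exact absurd (S.eqv_symm h') (key j p').1
        · exact absurd h' (key 0 p).2
        · exact absurd h' (key j' p).1
        · rw [key3 p p' h']
      subst hxy
      have hcc := mul_left_cancel h
      cases c <;> cases c' <;> simp [S.z_ne, Ne.symm S.z_ne] at hcc ⊢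
    have hb' : Function.Surjective F := (Function.Injective.bijective_of_nat_card_le
      (fun x y => hFinj x y) (by
        rw [S.card, Nat.card_eq_fintype_card]; decide +kernel)).2
    intro q
    obtain ⟨⟨x, c⟩, rfl⟩ := hb' q
    have he : ∀ w, S.Eqv (w * if c then S.z else 1) w := by
      intro w; cases c
      · exact Or.inl (mul_one w)
      · exact Or.inr rfl
    rcases x with _ | j | p
    · exact Or.inl (he _)
    · exact Or.inr (Or.inl ⟨j, he _⟩)
    · exact Or.inr (Or.inr ⟨p.1.1, p.1.2, p.2.ne, he _⟩)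
  have hfixed : ∀ q, S.act κ q = q⁻¹ → ∃ m, S.Eqv q (r m) := by
    intro q hq
    have hq' : S.Eqv (S.act κ q) q := by
      rcases S.sq q with e | e
      · exact Or.inl (by rw [hq, inv_eq_of_mul_eq_one_right e])
      · refine Or.inr ?_
        rw [hq, inv_eq_iff_mul_eq_one, ← mul_assoc, e, S.z_sq]
    rcases hcanon q with h | ⟨j, h⟩ | ⟨j, k, hjk, h⟩
    · exact ⟨0, h⟩
    · refine ⟨1, ?_⟩
      have := hinj (ψ κ j) j (S.eqv_trans (S.eqv_symm (hf κ j))
        (S.eqv_trans (S.eqv_act κ (S.eqv_symm h)) (S.eqv_trans hq' h)))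
      have hj : j = i := by
        by_contra hj; exact (hnei j hj).2 this
      subst hj
      exact h
    · have hh : S.Eqv (u (ψ κ j) * u (ψ κ k)) (u j * u k) :=
        S.eqv_trans (S.eqv_symm (by
          rw [map_mul]; exact S.eqv_mul (hf κ j) (hf κ k)))
          (S.eqv_trans (S.eqv_act κ (S.eqv_symm h)) (S.eqv_trans hq' h))
      have hcl : ∀ x y w v, x ≠ y → w ≠ v → S.Eqv (u x * u y) (u w * u v) → x = w ∨ x = v := by
        intro x y w v hxy hwv e
        by_contra hne
        push Not at hne
        by_cases e3 : y = w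
        · subst e3
          exact hne.2 (hinj _ _ (by
            rcases S.eqv_trans (S.eqv_symm (S.eqv_comm _ _)) e with e' | e'
            · exact Or.inl (mul_left_cancel e')
            · exact Or.inr (mul_left_cancel (e'.trans (mul_assoc _ _ _)))))
        by_cases e4 : y = v
        · subst e4
          exact hne.1 (hinj _ _ (by
            rcases S.eqv_trans (S.eqv_symm (S.eqv_comm _ _)) (S.eqv_trans e (S.eqv_comm _ _))
              with e' | e'
            · exact Or.inl (mul_left_cancel e')
            · exact Or.inr (mul_left_cancel (e'.trans (mul_assoc _ _ _)))))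
        obtain ⟨σ', s1, s2, s3, s4⟩ := a5_four x y w v hxy hne.1 hne.2 e3 e4 hwv
        obtain ⟨k', hk'⟩ := hsur σ'
        have t := S.eqv_act k' e
        rw [map_mul, map_mul] at t
        have f1 := hf k' x
        have f2 := hf k' y
        have f3 := hf k' w
        have f4 := hf k' v
        rw [hk', s1] at f1; rw [hk', s2] at f2; rw [hk', s3] at f3; rw [hk'] at f4
        have t' := S.eqv_trans (S.eqv_symm e) (S.eqv_trans (S.eqv_comm _ _)
          (S.eqv_trans (S.eqv_symm (S.eqv_mul f1 f2)) (S.eqv_trans t (S.eqv_mul f3 f4))))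
        refine s4 (hinj _ _ ?_).symm
        rcases t' with e' | e'
        · exact Or.inl (mul_left_cancel e')
        · exact Or.inr (mul_left_cancel (e'.trans (mul_assoc _ _ _)))
      have hji : j ≠ i ∧ ψ κ j = k := by
        have hne : ψ κ j ≠ ψ κ k := fun e => hjk ((ψ κ).injective e)
        rcases hcl _ _ _ _ hne hjk hh with e | e
        · exfalso
          have hj : j = i := by by_contra hj; exact (hnei j hj).2 e
          rcases hcl _ _ _ _ hne.symm hjk (S.eqv_trans (S.eqv_comm _ _) hh) with e' | e'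
          · exact hne (e.trans e'.symm)
          · have hk : k = i := by by_contra hk; exact (hnei k hk).2 e'
            exact hjk (hj.trans hk.symm)
        · refine ⟨fun hj => hjk ?_, e⟩
          rw [hj] at e ⊢; rwa [← hσ, hi] at e
      obtain ⟨hj, rfl⟩ := hji
      have hmem : j = a ∨ j = a' ∨ j = b ∨ j = b' := by
        have hu : ({i, a, a', b, b'} : Finset (Fin 5)) = Finset.univ := by
          refine Finset.eq_univ_of_card _ ?_
          have d1 : i ≠ a' := hAa.1.symm
          have d2 : i ≠ b' := hBb.1.symm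
          have d3 : a ≠ a' := hAa.2.symm
          rw [Fintype.card_fin, Finset.card_insert_of_notMem (by
              simp [ha.symm, d1, hb.1.symm, d2]),
            Finset.card_insert_of_notMem (by simp [d3, hb.2.1.symm, hab'.1.symm]),
            Finset.card_insert_of_notMem (by simp [hb.2.2.symm, hab'.2.symm]),
            Finset.card_pair hBb.2.symm]
        have := hu.ge (Finset.mem_univ j)
        simpa [hj] using this
      rcases hmem with rfl | rfl | rfl | rfl
      · exact ⟨2, h⟩
      · refine ⟨2, ?_⟩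
        rw [ha', hsq] at h
        exact S.eqv_trans h (S.eqv_comm _ _)
      · exact ⟨3, h⟩
      · refine ⟨3, ?_⟩
        rw [hb', hsq] at h
        exact S.eqv_trans h (S.eqv_comm _ _)
  have hrinj : ∀ m m' : Fin 4, S.Eqv (r m) (r m') → m = m' := by
    have sq_eqv : ∀ {x y : Q}, S.Eqv x y → x * x = y * y := by
      rintro x y (rfl | rfl)
      · rfl
      · rw [mul_assoc, ← mul_assoc S.z, S.z_comm, mul_assoc y, S.z_sq, mul_one]
    intro m m' h
    have hA := hpair_sq a a' hAa.2.symm
    have hB := hpair_sq b b' hBb.2.symm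
    have hne23 : ¬ S.Eqv (u a * u a') (u b * u b') := by
      intro e
      obtain ⟨σ', s1, s2, s3, s4⟩ := a5_four a a' b b' hAa.2.symm hb.2.1.symm hab'.1.symm
        hb.2.2.symm hab'.2.symm hBb.2.symm
      obtain ⟨k', hk'⟩ := hsur σ'
      have t := S.eqv_act k' e
      rw [map_mul, map_mul] at t
      have f1 := hf k' a
      have f2 := hf k' a'
      have f3 := hf k' b
      have f4 := hf k' b'
      rw [hk', s1] at f1; rw [hk', s2] at f2; rw [hk', s3] at f3; rw [hk'] at f4
      have t' := S.eqv_trans (S.eqv_symm e) (S.eqv_trans (S.eqv_comm _ _)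
        (S.eqv_trans (S.eqv_symm (S.eqv_mul f1 f2)) (S.eqv_trans t (S.eqv_mul f3 f4))))
      refine s4 (hinj _ _ ?_).symm
      rcases t' with e' | e'
      · exact Or.inl (mul_left_cancel e')
      · exact Or.inr (mul_left_cancel (e'.trans (mul_assoc _ _ _)))
    have h01 : ¬ S.Eqv (1 : Q) (u i) := fun e => by
      rcases e with e | e
      · exact (hI i).2.1 e.symm
      · exact (S.isI_mul_z (hI i)).2.1 e.symm
    fin_cases m <;> fin_cases m' <;> first
      | rfl
      | exact absurd h h01
      | exact absurd (S.eqv_symm h) h01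
      | exact absurd h hne23
      | exact absurd (S.eqv_symm h) hne23
      | (exfalso
         have hs := sq_eqv h
         simp only [r, Matrix.cons_val_zero, Matrix.cons_val_one, Matrix.cons_val, Fin.isValue,
           Fin.mk_one, Fin.zero_eta, Fin.reduceFinMk, one_mul, hA, hB, (hI i).1] at hs
         first | exact S.z_ne hs | exact S.z_ne hs.symm)
  refine ⟨?_, ?_⟩
  · have e : Fin 4 × Bool ≃ {q : Q // S.act κ q = q⁻¹} := by
      refine Equiv.ofBijective (fun x => ⟨r x.1 * if x.2 then S.z else 1, hinv x.2 x.1⟩) ⟨?_, ?_⟩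
      · rintro ⟨m, c⟩ ⟨m', c'⟩ h
        have h' : r m * (if c then S.z else 1) = r m' * (if c' then S.z else 1) :=
          congrArg Subtype.val h
        have hm : m = m' := hrinj m m' (by
          cases c <;> cases c' <;> simp at h'
          · exact Or.inl h'
          · exact Or.inr h'
          · exact Or.inr (by rw [← h', mul_assoc, S.z_sq, mul_one])
          · exact Or.inl h')
        subst hm
        have hcc := mul_left_cancel h'
        cases c <;> cases c' <;> simp [S.z_ne, Ne.symm S.z_ne] at hcc ⊢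
      · rintro ⟨q, hq⟩
        obtain ⟨m, h | h⟩ := hfixed q hq
        · exact ⟨(m, false), Subtype.ext (by simp [h])⟩
        · exact ⟨(m, true), Subtype.ext (by simp [h])⟩
    rw [← Nat.card_congr e, Nat.card_prod, Nat.card_eq_fintype_card, Nat.card_eq_fintype_card]
    rfl
  · intro q hq
    obtain ⟨m, hm⟩ := hfixed q hq
    have hqi : q * u i = u i * q := by
      refine S.comm_eqv hm ?_
      have hcp : ∀ j k, j ≠ i → k ≠ i → (u j * u k) * u i = u i * (u j * u k) := by
        intro j k hj hk
        have e1 := (S.comm (u k) (u i)).resolve_left fun e => hk (hu_comm _ _ e)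
        have e2 := (S.comm (u j) (u i)).resolve_left fun e => hj (hu_comm _ _ e)
        calc u j * u k * u i = u j * (S.z * (u i * u k)) := by rw [mul_assoc, e1]
          _ = S.z * (u j * u i) * u k := by
              rw [← mul_assoc (u j), ← S.z_comm]; group
          _ = S.z * S.z * (u i * (u j * u k)) := by rw [e2]; group
          _ = u i * (u j * u k) := by rw [S.z_sq, one_mul]
      fin_cases m <;> simp only [r, Matrix.cons_val_zero, Matrix.cons_val_one, Matrix.cons_val,
        Fin.isValue, Fin.mk_one, Fin.zero_eta, Fin.reduceFinMk]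
      · simp
      · exact hcp a a' ha hAa.1
      · exact hcp b b' hb.1 hBb.1
    have hstay : ∀ w, S.IsI w → (S.act κ (q * w * q⁻¹) = w ↔ w = u i ∨ w = u i * S.z) := by
      intro w hw
      constructor
      · intro h
        obtain ⟨j, hj⟩ := hall w hw
        have hj' : S.Eqv (S.act κ (q * w * q⁻¹)) (u (ψ κ j)) := by
          refine S.eqv_trans (S.eqv_act κ ?_) (S.eqv_trans (S.eqv_act κ hj) (hf κ j))
          have e := S.eqv_mul (S.eqv_comm q w) (S.eqv_refl q⁻¹)
          rwa [mul_inv_cancel_right] at e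
        rw [h] at hj'
        have : j = i := by
          by_contra hne
          exact (hnei j hne).2 (hinj _ _ (S.eqv_trans (S.eqv_symm hj') hj))
        subst this
        exact hj
      · rintro (rfl | rfl)
        · rw [hqi, mul_inv_cancel_right, hκu]
        · rw [← mul_assoc, hqi, mul_assoc (u i), ← S.z_comm q, ← mul_assoc,
            mul_inv_cancel_right, map_mul, hκu, S.act_z]
    have hsplit : Nat.card {w : Q // S.IsI w ∧ S.act κ (q * w * q⁻¹) ≠ w} + 2 =
        Nat.card {w : Q // S.IsI w} := by
      rw [Nat.card_eq_fintype_card, Nat.card_eq_fintype_card, Fintype.card_subtype,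
        Fintype.card_subtype]
      have hsub : ({u i, u i * S.z} : Finset Q) ⊆ Finset.univ.filter S.IsI := by
        simp [Finset.insert_subset_iff, hI i, S.isI_mul_z (hI i)]
      rw [show (2 : ℕ) = ({u i, u i * S.z} : Finset Q).card from
        (Finset.card_pair (fun e => S.z_ne (mul_eq_left.1 e.symm))).symm,
        ← Finset.card_sdiff_add_card_eq_card hsub]
      congr 1
      refine congrArg _ ?_
      ext w
      simp only [Finset.mem_filter, Finset.mem_univ, true_and, Finset.mem_sdiff,
        Finset.mem_insert, Finset.mem_singleton]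
      exact ⟨fun h => ⟨h.1, fun e => h.2 ((hstay w h.1).2 e)⟩,
        fun h => ⟨h.1, fun e => h.2 ((hstay w h.1).1 e)⟩⟩
    rw [S.card_isI] at hsplit
    omega

end Setup

end Cfsg.Agent.H33.HJ
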