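import Mathlib
import Cfsg.Prelude
import Cfsg.Agent.H28.BrauerFowler
import Cfsg.Agent.H51.FStar
import Cfsg.Agent.H19.Cores
import Cfsg.Agent.H24.PGroupBasic
import Cfsg.Agent.H33.HJPatternLocal

/-!
The order of a group with the involution pattern of the Hall-Janko group.
-/

set_option autoImplicit false
set_option linter.style.haveILetI false
set_option maxHeartbeats 400000

namespace Cfsg.Agent.H33.HJ

open Cfsg
open scoped commutatorElement

variable {G : Type*} [Group G] [Finite G]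

omit [Finite G] in
lemma mem_centralizer_of_zpowers {a b c : G} (ha : a * a = 1) (hb : b * b = 1) (hc : c * c = 1)
    (h : c ∈ Subgroup.zpowers (a * b)) :
    a ∈ Subgroup.centralizer ({c} : Set G) ∧ b ∈ Subgroup.centralizer ({c} : Set G) := by
  obtain ⟨k, hk⟩ := Subgroup.mem_zpowers_iff.1 h
  have key : ∀ x : G, x * (a * b) * x⁻¹ = (a * b)⁻¹ → x ∈ Subgroup.centralizer ({c} : Set G) := by
    intro x hx
    refine Subgroup.mem_centralizer_singleton_iff.2 ?_
    have : x * c * x⁻¹ = c := by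
      rw [← hk, ← conj_zpow, hx, inv_zpow, hk, inv_eq_of_mul_eq_one_right hc]
    calc x * c = x * c * x⁻¹ * x := by group
      _ = c * x := by rw [this]
  constructor
  · refine key a ?_
    rw [mul_inv_rev, inv_eq_of_mul_eq_one_right ha, inv_eq_of_mul_eq_one_right hb, ← mul_assoc,
      ha, one_mul]
  · refine key b ?_
    rw [mul_inv_rev, inv_eq_of_mul_eq_one_right ha, inv_eq_of_mul_eq_one_right hb, mul_assoc,
      mul_assoc, hb, mul_one]

lemma pow_fifteen_iff {a b : A5} (ha : a * a = 1) (ha1 : a ≠ 1) (hb : b * b = 1) :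
    Odd (orderOf (a * b)) ↔ b = a ∨ a * b ≠ b * a := by
  rw [← a5_odd_iff a b ha ha1 hb]
  constructor
  · intro h
    have h30 : (a * b) ^ 30 = 1 := by
      have : orderOf (a * b) ∣ 60 := by
        have := orderOf_dvd_natCard (a * b)
        rwa [Nat.card_eq_fintype_card, show Fintype.card A5 = 60 by decide +kernel] at this
      obtain ⟨k, hk⟩ := h
      have hd : orderOf (a * b) ∣ 30 := by
        refine (Nat.Coprime.dvd_of_dvd_mul_left ?_ (show orderOf (a * b) ∣ 2 * 30 from this))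
        rw [hk, Nat.coprime_mul_left_add_left]
        exact Nat.coprime_one_left 2
      exact orderOf_dvd_iff_pow_eq_one.1 hd
    refine orderOf_dvd_iff_pow_eq_one.1 ?_
    exact Nat.Coprime.dvd_of_dvd_mul_left ((Nat.coprime_two_right).2 h)
      (orderOf_dvd_of_pow_eq_one h30 : orderOf (a * b) ∣ 2 * 15)
  · intro h
    exact Odd.of_dvd_nat (by decide) (orderOf_dvd_of_pow_eq_one h)

/-- The count in the centralizer of `t`. -/
lemma count_t {t : G} (ht : orderOf t = 2) {z : G} (hz2 : orderOf z = 2) (hxz : ¬ IsConj z t)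
    {V B : Subgroup G} (hVB : IsInternalDirectProduct V B (Subgroup.centralizer ({t} : Set G)))
    (hV2 : ∀ v ∈ V, v ^ 2 = 1) (htV : t ∈ V) (e : ↥B ≃* A5)
    (hBz : ∀ y ∈ B, orderOf y = 2 → IsConj y z)
    (hCt : ∀ y ∈ Subgroup.centralizer ({t} : Set G), orderOf y = 2 → y ∉ B → IsConj y t) :
    Nat.card {p : G × G // IsConj z p.1 ∧ IsConj t p.2 ∧ t ∈ Subgroup.zpowers (p.1 * p.2)} =
      195 := by
  obtain ⟨hVC, hBC, hcomm, hdisj, hsup⟩ := hVB
  have ht1 : t ≠ 1 := fun h => by simp [h] at ht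
  have htt : t * t = 1 := by rw [← pow_two, ← ht, pow_orderOf_eq_one]
  rw [← a5_card_pairs]
  symm
  have h2 : ∀ {g : G}, g * g = 1 → g ≠ 1 → orderOf g = 2 := fun h h' =>
    orderOf_eq_prime (by rw [pow_two]; exact h) h'
  have hmem : ∀ b : A5, ((e.symm b : B) : G) ∈ B := fun b => (e.symm b).2
  have hc : ∀ b : A5, t * ((e.symm b : B) : G) = ((e.symm b : B) : G) * t := fun b =>
    hcomm t htV _ (hmem b)
  have hinjc : ∀ a b : A5, ((e.symm a : B) : G) = ((e.symm b : B) : G) → a = b := fun a b h =>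
    e.symm.injective (Subtype.ext h)
  have hnotB : t ∉ B := fun h => ht1 (by
    have : t ∈ V ⊓ B := ⟨htV, h⟩
    rwa [hdisj, Subgroup.mem_bot] at this)
  refine Nat.card_congr (Equiv.ofBijective (fun p =>
    ⟨(((e.symm p.1.1 : B) : G), t * ((e.symm p.1.2 : B) : G)), ?_, ?_, ?_⟩) ⟨?_, ?_⟩)
  · refine (hBz _ (hmem _) (h2 ?_ fun h => p.2.2.1 ?_)).symm
    · rw [← Subgroup.coe_mul, ← map_mul, p.2.1, map_one, Subgroup.coe_one]
    · refine hinjc _ _ ?_
      rw [map_one, Subgroup.coe_one]; exact h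
  · refine (hCt _ (Subgroup.mul_mem _ (hVC htV) (hBC (hmem _))) (h2 ?_ fun h => ?_) fun h => ?_).symm
    · calc t * ((e.symm p.1.2 : B) : G) * (t * ((e.symm p.1.2 : B) : G))
          = t * (((e.symm p.1.2 : B) : G) * t) * ((e.symm p.1.2 : B) : G) := by group
        _ = t * t * (((e.symm p.1.2 : B) : G) * ((e.symm p.1.2 : B) : G)) := by
            rw [← hc]; group
        _ = 1 := by rw [htt, one_mul, ← Subgroup.coe_mul, ← map_mul, p.2.2.2.1, map_one,
            Subgroup.coe_one]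
    · exact hnotB (by rw [eq_inv_of_mul_eq_one_left h]; exact B.inv_mem (hmem _))
    · exact hnotB (by simpa using B.mul_mem h (B.inv_mem (hmem p.1.2)))
  · obtain ⟨k, hk⟩ := (pow_fifteen_iff p.2.1 p.2.2.1 p.2.2.2.1).2 p.2.2.2.2
    refine ⟨((2 * k + 1 : ℕ) : ℤ), ?_⟩
    show (((e.symm p.1.1 : B) : G) * (t * ((e.symm p.1.2 : B) : G))) ^ ((2 * k + 1 : ℕ) : ℤ) = t
    rw [← mul_assoc, ← hc, mul_assoc, ← Subgroup.coe_mul, ← map_mul, zpow_natCast,
      Commute.mul_pow (hc _), ← Subgroup.coe_pow, ← map_pow,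
      show (p.1.1 * p.1.2) ^ (2 * k + 1) = 1 by rw [← hk]; exact pow_orderOf_eq_one _, map_one,
      Subgroup.coe_one, mul_one, pow_succ, pow_mul, pow_two, htt, one_pow, one_mul]
  · intro p p' h
    simp only [Subtype.mk.injEq, Prod.mk.injEq] at h
    exact Subtype.ext (Prod.ext (hinjc _ _ h.1) (hinjc _ _ (mul_left_cancel h.2)))
  · rintro ⟨⟨u, v⟩, hu, hv, hmem'⟩
    dsimp only at hu hv hmem'
    have hu2 : orderOf u = 2 := by
      obtain ⟨g, hg⟩ := isConj_iff.1 hu
      rw [← hg]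
      by_contra hne
      exact hne (by
        rw [show orderOf (g * z * g⁻¹) = orderOf (MulAut.conj g z) from rfl,
          MulEquiv.orderOf_eq]
        exact hz2)
    have hv2 : orderOf v = 2 := by
      obtain ⟨g, hg⟩ := isConj_iff.1 hv
      rw [← hg, show orderOf (g * t * g⁻¹) = orderOf (MulAut.conj g t) from rfl,
        MulEquiv.orderOf_eq, ht]
    have hu1 : u * u = 1 := by rw [← pow_two, ← hu2, pow_orderOf_eq_one]
    have hv1 : v * v = 1 := by rw [← pow_two, ← hv2, pow_orderOf_eq_one]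
    obtain ⟨huC, hvC⟩ := mem_centralizer_of_zpowers hu1 hv1 htt hmem'
    have huB : u ∈ B := by
      by_contra h
      exact hxz (hu.trans (hCt u huC hu2 h))
    have hvB : v ∉ B := fun h => hxz ((hBz v h hv2).symm.trans hv.symm)
    obtain ⟨w, hw, b', hb', rfl⟩ : ∃ w ∈ V, ∃ b' ∈ B, w * b' = v := by
      have hvs : v ∈ V ⊔ B := hsup.ge hvC
      have hcs : V ≤ Subgroup.centralizer (B : Set G) := fun w hw =>
        Subgroup.mem_centralizer_iff.2 fun b hb => (hcomm w hw b hb).symm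
      rw [← SetLike.mem_coe, Subgroup.coe_mul_of_left_le_normalizer_right V B
        (hcs.trans (Subgroup.centralizer_le_normalizer _))] at hvs
      obtain ⟨w, hw, b', hb', h⟩ := hvs
      exact ⟨w, hw, b', hb', h⟩
    have hw1 : w ≠ 1 := fun h => hvB (by rw [h, one_mul]; exact hb')
    have hwb : w * b' = b' * w := hcomm w hw b' hb'
    have hwu : w * u = u * w := hcomm w hw u huB
    have hb2 : b' * b' = 1 := by
      have hwsq : w * w = 1 := by rw [← pow_two]; exact hV2 w hw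
      calc b' * b' = w * w * (b' * b') := by rw [hwsq, one_mul]
        _ = w * (w * b') * b' := by group
        _ = w * (b' * w) * b' := by rw [hwb]
        _ = w * b' * (w * b') := by group
        _ = 1 := hv1
    obtain ⟨k, hk⟩ := Subgroup.mem_zpowers_iff.1 hmem'
    have hc' : Commute w (u * b') := Commute.mul_right hwu hwb
    change (u * (w * b')) ^ k = t at hk
    rw [← mul_assoc, ← hwu, mul_assoc, hc'.mul_zpow] at hk
    have hpart : w ^ k = t ∧ (u * b') ^ k = 1 := by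
      have h1 : (w ^ k)⁻¹ * t ∈ V ⊓ B := by
        refine ⟨V.mul_mem (V.inv_mem (V.zpow_mem hw k)) htV, ?_⟩
        rw [← hk, ← mul_assoc, inv_mul_cancel, one_mul]
        exact B.zpow_mem (B.mul_mem huB hb') k
      rw [hdisj, Subgroup.mem_bot] at h1
      have h2' : w ^ k = t := inv_mul_eq_one.1 h1
      refine ⟨h2', ?_⟩
      rw [h2'] at hk
      exact mul_eq_left.1 hk
    have hkodd : Odd k := by
      rcases Int.even_or_odd k with ⟨j, rfl⟩ | h
      · exfalso
        refine ht1 ?_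
        rw [← hpart.1, ← two_mul, zpow_mul, zpow_two, ← pow_two, hV2 w hw, one_zpow]
      · exact h
    have hwt : w = t := by
      obtain ⟨j, rfl⟩ := hkodd
      rw [← hpart.1, zpow_add, zpow_mul, zpow_two, ← pow_two, hV2 w hw, one_zpow, one_mul,
        zpow_one]
    subst hwt
    have hodd : Odd (orderOf (e ⟨u, huB⟩ * e ⟨b', hb'⟩)) := by
      rw [← map_mul, MulEquiv.orderOf_eq, ← Subgroup.orderOf_coe]
      show Odd (orderOf (u * b'))
      have := (Int.natCast_dvd).1 (orderOf_dvd_iff_zpow_eq_one.2 hpart.2)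
      exact Odd.of_dvd_nat (Int.natAbs_odd.2 hkodd) this
    have ha1 : e ⟨u, huB⟩ * e ⟨u, huB⟩ = 1 := by
      rw [← map_mul, show (⟨u, huB⟩ : B) * ⟨u, huB⟩ = 1 from Subtype.ext hu1, map_one]
    have hb1 : e ⟨b', hb'⟩ * e ⟨b', hb'⟩ = 1 := by
      rw [← map_mul, show (⟨b', hb'⟩ : B) * ⟨b', hb'⟩ = 1 from Subtype.ext hb2, map_one]
    have hne : e ⟨u, huB⟩ ≠ 1 := fun h => by
      have := congrArg Subtype.val (e.injective (h.trans e.map_one.symm))
      simp only [Subgroup.coe_one] at this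
      rw [this, orderOf_one] at hu2
      exact absurd hu2 (by norm_num)
    exact ⟨⟨(e ⟨u, huB⟩, e ⟨b', hb'⟩), ha1, hne, hb1, (pow_fifteen_iff ha1 hne hb1).1 hodd⟩,
      Subtype.ext (Prod.ext (by simp) (by simp))⟩

/-- The count in the centralizer of `z`. -/
lemma count_z {z t : G} (hz : orderOf z = 2) (ht : orderOf t = 2) (hzt : ¬ IsConj z t)
    {O : Subgroup ↥(Subgroup.centralizer ({z} : Set G))} (S : Setup ↥O A5) [hO : O.Normal]
    (hSz : (((S.z : O) : ↥(Subgroup.centralizer ({z} : Set G))) : G) = z)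
    (j : A5 →* ↥(Subgroup.centralizer ({z} : Set G))) (hj : Function.Injective j)
    (hact : ∀ k (q : O), ((S.act k q : O) : ↥(Subgroup.centralizer ({z} : Set G))) =
      j k * q * (j k)⁻¹)
    (hdec : ∀ h : ↥(Subgroup.centralizer ({z} : Set G)), ∃ (k : A5) (q : O), h = j k * q)
    (hdis : ∀ k, j k ∈ O → k = 1)
    (hQz : ∀ x : O, orderOf ((x : ↥(Subgroup.centralizer ({z} : Set G))) : G) = 2 →
      IsConj ((x : ↥(Subgroup.centralizer ({z} : Set G))) : G) z)
    (hCz : ∀ h : ↥(Subgroup.centralizer ({z} : Set G)), orderOf (h : G) = 2 → h ∉ O →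
      IsConj (h : G) t) :
    Nat.card {p : G × G // IsConj z p.1 ∧ IsConj t p.2 ∧ z ∈ Subgroup.zpowers (p.1 * p.2)} =
      960 := by
  classical
  haveI : Fintype ↥O := Fintype.ofFinite _
  have hz1 : z ≠ 1 := fun h => by simp [h] at hz
  have hzz : z * z = 1 := by rw [← pow_two, ← hz, pow_orderOf_eq_one]
  let ι : ↥O → G := fun q => ((q : ↥(Subgroup.centralizer ({z} : Set G))) : G)
  have hιmul : ∀ a b, ι (a * b) = ι a * ι b := fun a b => rfl
  have hιinj : Function.Injective ι := fun a b h => Subtype.ext (Subtype.ext h)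
  have hι1 : ι 1 = 1 := rfl
  have h2 : ∀ {g : G}, g * g = 1 → g ≠ 1 → orderOf g = 2 := fun h h' =>
    orderOf_eq_prime (by rw [pow_two]; exact h) h'
  let P := Σ k : {k : A5 // k * k = 1 ∧ k ≠ 1}, Σ q : {q : O // S.act k.1 q = q⁻¹},
    {w : O // S.IsI w ∧ S.act k.1 (q.1 * w * q.1⁻¹) ≠ w}
  have hP : Nat.card P = 960 := by
    rw [Nat.card_sigma]
    have : ∀ k : {k : A5 // k * k = 1 ∧ k ≠ 1}, Nat.card (Σ q : {q : O // S.act k.1 q = q⁻¹},
        {w : O // S.IsI w ∧ S.act k.1 (q.1 * w * q.1⁻¹) ≠ w}) = 64 := by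
      intro k
      obtain ⟨h8, h8'⟩ := S.coset_count k.2.1 k.2.2
      rw [Nat.card_sigma, Finset.sum_congr rfl fun q _ => h8' q.1 q.2, Finset.sum_const,
        Finset.card_univ, ← Nat.card_eq_fintype_card, h8]
      rfl
    rw [Finset.sum_congr rfl fun k _ => this k, Finset.sum_const, Finset.card_univ,
      ← Nat.card_eq_fintype_card, a5_card_invol]
    rfl
  rw [← hP]
  symm
  -- the involution `j k * q` and its conjugation
  let v : ∀ (k : A5) (q : O), G := fun k q => (j k : G) * ι q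
  have hconj : ∀ (k : A5) (q w : O), v k q * ι w * (v k q)⁻¹ = ι (S.act k (q * w * q⁻¹)) := by
    intro k q w
    show _ = ((_ : ↥(Subgroup.centralizer ({z} : Set G))) : G)
    rw [hact]
    simp [v, ι, mul_assoc]
  have hv2 : ∀ {k : A5} {q : O}, k * k = 1 → S.act k q = q⁻¹ → v k q * v k q = 1 := by
    intro k q hk hq
    have h1 : ι (S.act k q) = (j k : G) * ι q * (j k : G)⁻¹ := by
      show ((_ : ↥(Subgroup.centralizer ({z} : Set G))) : G) = _
      rw [hact]
      simp [ι]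
    have hjj : (j k : G)⁻¹ = j k := inv_eq_of_mul_eq_one_right (by
      rw [← Subgroup.coe_mul, ← map_mul, hk, map_one, Subgroup.coe_one])
    rw [hjj, hq] at h1
    calc v k q * v k q = (j k : G) * ι q * (j k : G) * ι q := by simp [v, mul_assoc]
      _ = ι q⁻¹ * ι q := by rw [h1]
      _ = 1 := by rw [← hιmul, inv_mul_cancel, hι1]
  have hvO : ∀ {k : A5} {q : O}, k ≠ 1 → (j k * q : ↥(Subgroup.centralizer ({z} : Set G))) ∉ O :=
    fun {k q} hk h => hk (hdis k (by simpa using O.mul_mem h (O.inv_mem q.2)))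
  have hF1 : ∀ x : P, IsConj z (ι x.2.2.1) := by
    intro x
    obtain ⟨⟨k, hk⟩, ⟨q, hq⟩, ⟨w, hw, hne⟩⟩ := x
    exact (hQz w (h2 (by rw [← hιmul, hw.1, hι1]) fun e => hw.2.1 (hιinj e))).symm
  have hF2 : ∀ x : P, IsConj t (v x.1.1 x.2.1.1) := by
    intro x
    obtain ⟨⟨k, hk⟩, ⟨q, hq⟩, ⟨w, hw, hne⟩⟩ := x
    refine (hCz (j k * q) (h2 (hv2 hk.1 hq) fun e => hvO (q := q) hk.2 ?_) (hvO hk.2)).symm
    have : (j k * q : ↥(Subgroup.centralizer ({z} : Set G))) = 1 := Subtype.ext e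
    rw [this]; exact O.one_mem
  have hF3 : ∀ x : P, z ∈ Subgroup.zpowers (ι x.2.2.1 * v x.1.1 x.2.1.1) := by
    intro x
    obtain ⟨⟨k, hk⟩, ⟨q, hq⟩, ⟨w, hw, hne⟩⟩ := x
    show z ∈ Subgroup.zpowers (ι w * v k q)
    set w' := S.act k (q * w * q⁻¹) with hw'
    have hw'I : S.IsI w' := S.isI_act _
      ⟨by rw [conj_mul, hw.1, mul_one, mul_inv_cancel], fun e => hw.2.1 (by simpa using e),
        fun e => hw.2.2 (by
          have e1 : w = q⁻¹ * S.z * q := by rw [← e]; group
          rw [e1, mul_assoc, S.z_comm, inv_mul_cancel_left])⟩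
    have hsq : (ι w * v k q) ^ 2 = ι (w * w') := by
      rw [hιmul, ← hconj, pow_two, show (v k q)⁻¹ = v k q from
        inv_eq_of_mul_eq_one_right (hv2 hk.1 hq)]
      group
    rcases S.sq (w * w') with h | h
    · -- commuting: then `w' = w z`
      have hc : w * w' = w' * w := by
        rw [eq_inv_of_mul_eq_one_left h, mul_inv_rev, inv_eq_of_mul_eq_one_right hw.1,
          inv_eq_of_mul_eq_one_right hw'I.1]
      rcases S.eqv_of_comm hw'I hw hc.symm with e | e
      · exact absurd e hne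
      · refine ⟨((2 : ℕ) : ℤ), ?_⟩
        show (ι w * v k q) ^ ((2 : ℕ) : ℤ) = z
        rw [zpow_natCast, hsq, e, ← mul_assoc, hw.1, one_mul]
        exact hSz
    · refine ⟨((4 : ℕ) : ℤ), ?_⟩
      show (ι w * v k q) ^ ((4 : ℕ) : ℤ) = z
      rw [zpow_natCast, show 4 = 2 * 2 from rfl, pow_mul, hsq, pow_two, ← hιmul, h]
      exact hSz
  have hinjF : ∀ x y : P, (ι x.2.2.1, v x.1.1 x.2.1.1) = (ι y.2.2.1, v y.1.1 y.2.1.1) → x = y := by
    rintro ⟨⟨k, hk⟩, ⟨q, hq⟩, ⟨w, hw⟩⟩ ⟨⟨k', hk'⟩, ⟨q', hq'⟩, ⟨w', hw'⟩⟩ h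
    simp only [Prod.mk.injEq] at h
    obtain rfl := hιinj h.1
    have h' : j k * q = j k' * q' := Subtype.ext h.2
    obtain rfl : k = k' := by
      refine (inv_mul_eq_one.1 (hdis (k'⁻¹ * k) ?_)).symm
      rw [map_mul, map_inv, eq_mul_inv_of_mul_eq h', mul_assoc, inv_mul_cancel_left]
      exact O.mul_mem q'.2 (O.inv_mem q.2)
    obtain rfl : q = q' := Subtype.ext (mul_left_cancel h')
    rfl
  have hsurF : ∀ p : G × G, IsConj z p.1 → IsConj t p.2 → z ∈ Subgroup.zpowers (p.1 * p.2) →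
      ∃ x : P, (ι x.2.2.1, v x.1.1 x.2.1.1) = p := by
    rintro ⟨u, u'⟩ hu hu' hmem
    dsimp only at hu hu' hmem
    have hord : ∀ {a b : G}, IsConj a b → orderOf a = 2 → orderOf b = 2 := by
      intro a b hab ha
      obtain ⟨g, hg⟩ := isConj_iff.1 hab
      rw [← hg, show orderOf (g * a * g⁻¹) = orderOf (MulAut.conj g a) from rfl,
        MulEquiv.orderOf_eq, ha]
    have huo := hord hu hz
    have hvo := hord hu' ht
    have hu1 : u * u = 1 := by rw [← pow_two, ← huo, pow_orderOf_eq_one]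
    have hv1 : u' * u' = 1 := by rw [← pow_two, ← hvo, pow_orderOf_eq_one]
    obtain ⟨huC, hvC⟩ := mem_centralizer_of_zpowers hu1 hv1 hzz hmem
    have huO : (⟨u, huC⟩ : ↥(Subgroup.centralizer ({z} : Set G))) ∈ O := by
      by_contra h
      exact hzt (hu.trans (hCz ⟨u, huC⟩ huo h))
    have hvO' : (⟨u', hvC⟩ : ↥(Subgroup.centralizer ({z} : Set G))) ∉ O := fun h =>
      hzt ((hQz ⟨_, h⟩ hvo).symm.trans hu'.symm)
    obtain ⟨k, q, hkq⟩ := hdec ⟨u', hvC⟩
    have hk1 : k ≠ 1 := fun e => hvO' (by rw [hkq, e, map_one, one_mul]; exact q.2)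
    have hsq : j k * q * (j k * q) = 1 := by rw [← hkq]; exact Subtype.ext hv1
    have hk2 : k * k = 1 := by
      refine hdis _ ?_
      have : j (k * k) = (j k * q * (j k * q)) * ((q : ↥(Subgroup.centralizer ({z} : Set G)))⁻¹ *
          ((j k)⁻¹ * (q : ↥(Subgroup.centralizer ({z} : Set G)))⁻¹ * j k)) := by
        rw [map_mul]; group
      rw [this, hsq, one_mul]
      refine O.mul_mem (O.inv_mem q.2) ?_
      simpa using hO.conj_mem _ (O.inv_mem q.2) (j k)⁻¹
    have hq : S.act k q = q⁻¹ := by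
      refine Subtype.ext ?_
      rw [hact, Subgroup.coe_inv, inv_eq_of_mul_eq_one_right (show j k * j k = 1 by
        rw [← map_mul, hk2, map_one]), eq_comm, inv_eq_iff_mul_eq_one]
      calc _ = (q : ↥(Subgroup.centralizer ({z} : Set G))) * (j k * q * j k) := rfl
        _ = (j k)⁻¹ * (j k * q * (j k * q)) * j k := by group
        _ = 1 := by rw [hsq]; group
    let w : O := ⟨⟨u, huC⟩, huO⟩
    have hv : v k q = u' := congrArg Subtype.val hkq.symm
    obtain ⟨m, hm⟩ := Subgroup.mem_zpowers_iff.1 hmem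
    have hne : S.act k (q * w * q⁻¹) ≠ w := by
      intro e
      have h' := hconj k q w
      rw [e, hv] at h'
      have hcuv : Commute u u' := by
        show u * u' = u' * u
        have : u' * u * u'⁻¹ = u := h'
        conv_lhs => rw [← this]
        group
      -- then `z` is a power of the involution `u u'`
      change (u * u') ^ m = z at hm
      have h2' : (u * u') ^ (2 : ℕ) = 1 := by
        rw [hcuv.mul_pow, pow_two, pow_two, hu1, hv1, one_mul]
      rcases Int.even_or_odd m with ⟨i, rfl⟩ | ⟨i, rfl⟩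
      · refine hz1 ?_
        rw [← hm, ← two_mul, zpow_mul, zpow_two, ← pow_two, h2', one_zpow]
      · rw [zpow_add, zpow_mul, zpow_two, ← pow_two, h2', one_zpow, one_mul, zpow_one] at hm
        refine hvO' ?_
        have : (⟨u', hvC⟩ : ↥(Subgroup.centralizer ({z} : Set G))) = (w⁻¹ * S.z : O) := by
          refine Subtype.ext ?_
          show u' = u⁻¹ * _
          rw [hSz, ← hm, inv_mul_cancel_left]
        rw [this]; exact (w⁻¹ * S.z : O).2
    have hwI : S.IsI w := by
      refine ⟨hιinj ((hιmul w w).trans hu1), fun e => ?_, fun e => hne ?_⟩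
      · have : u = 1 := congrArg ι e
        rw [this, orderOf_one] at huo
        exact absurd huo (by norm_num)
      · rw [e, ← S.z_comm q, mul_assoc, mul_inv_cancel, mul_one, S.act_z]
    exact ⟨⟨⟨k, hk2, hk1⟩, ⟨q, hq⟩, ⟨w, hwI, hne⟩⟩, Prod.ext rfl hv⟩
  refine Nat.card_congr (Equiv.ofBijective
    (fun x : P => ⟨(ι x.2.2.1, v x.1.1 x.2.1.1), hF1 x, hF2 x, hF3 x⟩) ⟨?_, ?_⟩)
  · exact fun x y h => hinjF x y (congrArg Subtype.val h)
  · intro p
    exact (hsurF p.1 p.2.1 p.2.2.1 p.2.2.2).elim fun x hx => ⟨x, Subtype.ext hx⟩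

theorem card_eq (z t : G) (hz : orderOf z = 2) (ht : orderOf t = 2)
    (hzt : ¬ IsConj z t) (hcl : ∀ x : G, orderOf x = 2 → IsConj x z ∨ IsConj x t)
    (hex : IsExtraspecial 2 ↥(generalizedFittingSubgroup ↥(Subgroup.centralizer ({z} : Set G))))
    (hQ : Nat.card ↥(pCore 2 ↥(Subgroup.centralizer ({z} : Set G))) = 32)
    (K : Subgroup G) (e : ↥K ≃* A5)
    (hKC : K ⊔ (pCore 2 ↥(Subgroup.centralizer ({z} : Set G))).map
      (Subgroup.centralizer ({z} : Set G)).subtype = Subgroup.centralizer ({z} : Set G))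
    (hKQ : K ⊓ (pCore 2 ↥(Subgroup.centralizer ({z} : Set G))).map
      (Subgroup.centralizer ({z} : Set G)).subtype = ⊥)
    (hQz : ∀ x ∈ (pCore 2 ↥(Subgroup.centralizer ({z} : Set G))).map
      (Subgroup.centralizer ({z} : Set G)).subtype, orderOf x = 2 → IsConj x z)
    (hCz : ∀ x ∈ Subgroup.centralizer ({z} : Set G), orderOf x = 2 →
      x ∉ (pCore 2 ↥(Subgroup.centralizer ({z} : Set G))).map
        (Subgroup.centralizer ({z} : Set G)).subtype → IsConj x t)
    (V B : Subgroup G) (hVB : IsInternalDirectProduct V B (Subgroup.centralizer ({t} : Set G)))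
    (hV : Nat.card ↥V = 4) (hV2 : ∀ v ∈ V, v ^ 2 = 1) (htV : t ∈ V) (eB : ↥B ≃* A5)
    (hBz : ∀ x ∈ B, orderOf x = 2 → IsConj x z)
    (hCt : ∀ x ∈ Subgroup.centralizer ({t} : Set G), orderOf x = 2 → x ∉ B → IsConj x t) :
    Nat.card G = 604800 := by
  haveI : Fact (Nat.Prime 2) := ⟨Nat.prime_two⟩
  set H := Subgroup.centralizer ({z} : Set G) with hH
  set O := pCore 2 ↥H with hOdef
  haveI hOn : O.Normal := Cfsg.Agent.H19.pCore_normal 2 _
  have hOp : IsPGroup 2 ↥O := Cfsg.Agent.H19.pCore_isPGroup 2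
  have hFO : generalizedFittingSubgroup ↥H = O := by
    refine le_antisymm (Cfsg.Agent.H19.le_pCore
      (Cfsg.Agent.H51.generalizedFittingSubgroup_normal _) hex.1.1) ?_
    exact (Cfsg.Agent.H51.le_fittingSubgroup hOn hOp.isNilpotent).trans le_sup_right
  rw [hFO] at hex
  have hcent : Subgroup.centralizer (O : Set ↥H) ≤ O := by
    rw [← hFO]; exact Cfsg.Agent.H51.centralizer_generalizedFitting_le _
  have hKH : K ≤ H := le_sup_left.trans hKC.le
  have hzH : z ∈ H := Subgroup.mem_centralizer_singleton_iff.2 rfl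
  have hzc : ∀ h : ↥H, (⟨z, hzH⟩ : ↥H) * h = h * ⟨z, hzH⟩ := fun h =>
    Subtype.ext (Subgroup.mem_centralizer_singleton_iff.1 h.2).symm
  have hz1 : z ≠ 1 := fun h => by simp [h] at hz
  have hzO : (⟨z, hzH⟩ : ↥H) ∈ O := hcent (Subgroup.mem_centralizer_iff.2 fun h _ => (hzc h).symm)
  have hcen : ∀ x : O, (∀ y : O, x * y = y * x) ↔ x = 1 ∨ x = ⟨⟨z, hzH⟩, hzO⟩ := by
    intro x
    classical
    haveI : Fintype ↥O := Fintype.ofFinite _
    have hzZ : (⟨⟨z, hzH⟩, hzO⟩ : O) ∈ Subgroup.center O :=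
      Subgroup.mem_center_iff.2 fun y => Subtype.ext (hzc y).symm
    refine ⟨fun h => ?_, ?_⟩
    · by_contra hne
      push Not at hne
      have h3 : 3 ≤ Nat.card (Subgroup.center O) := by
        rw [Nat.card_eq_fintype_card, Fintype.card_subtype]
        refine le_trans ?_ (Finset.card_le_card (show ({1, ⟨⟨z, hzH⟩, hzO⟩, x} : Finset O) ⊆ _ from ?_))
        · rw [Finset.card_eq_three.2 ⟨1, ⟨⟨z, hzH⟩, hzO⟩, x, fun h' => hz1
            (congrArg (fun a : O => ((a : ↥H) : G)) h').symm, hne.1.symm, hne.2.symm, rfl⟩]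
        · simp [Finset.insert_subset_iff, hzZ, Subgroup.one_mem,
            Subgroup.mem_center_iff.2 fun y => (h y).symm]
      rw [hex.2] at h3
      omega
    · rintro (rfl | rfl) y
      · rw [one_mul, mul_one]
      · exact (Subgroup.mem_center_iff.1 hzZ y).symm
  have hcent' : ∀ x : O, x ∈ Subgroup.center O → x = 1 ∨ x = ⟨⟨z, hzH⟩, hzO⟩ := fun x hx =>
    (hcen x).1 fun y => (Subgroup.mem_center_iff.1 hx y).symm
  let j : A5 →* ↥H := (Subgroup.inclusion hKH).comp e.symm.toMonoidHom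
  have hjK : ∀ k, ((j k : ↥H) : G) ∈ K := fun k => (e.symm k).2
  have hdis : ∀ k, j k ∈ O → k = 1 := by
    intro k hk
    have h1 : ((j k : ↥H) : G) ∈ K ⊓ O.map H.subtype := ⟨hjK k, _, hk, rfl⟩
    rw [hKQ, Subgroup.mem_bot] at h1
    exact e.symm.injective ((Subtype.ext h1).trans e.symm.map_one.symm)
  let S : Setup ↥O A5 :=
    { z := ⟨⟨z, hzH⟩, hzO⟩
      act := (MulAut.conjNormal (H := O)).comp j
      equiv := MulEquiv.refl _
      card := hQ
      z_ne := fun h => hz1 (congrArg (fun a : O => ((a : ↥H) : G)) h)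
      cen := hcen
      sq := fun x => hcent' _ (by
        rw [← hex.1.2.1, ← pow_two]
        exact Cfsg.Agent.H24.pow_mem_frattini hOp x)
      comm := fun x y => by
        have h := hcent' ⁅x, y⁆ (by
          rw [← hex.1.2.2]
          exact Subgroup.commutator_mem_commutator (Subgroup.mem_top x) (Subgroup.mem_top y))
        rcases h with h | h
        · exact Or.inl (commutatorElement_eq_one_iff_mul_comm.1 h)
        · refine Or.inr ?_
          rw [← h, commutatorElement_def]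
          group
      faithful := by
        rw [← MonoidHom.ker_eq_bot_iff, eq_bot_iff]
        intro k hk
        refine Subgroup.mem_bot.2 (hdis k (hcent (Subgroup.mem_centralizer_iff.2 fun q hq => ?_)))
        have h1 : (MulAut.conjNormal (j k) : MulAut O) ⟨q, hq⟩ = ⟨q, hq⟩ := by
          have h0 : (MulAut.conjNormal (j k) : MulAut O) = 1 := MonoidHom.mem_ker.1 hk
          rw [h0, MulAut.one_apply]
        have h2 := congrArg Subtype.val h1
        rw [MulAut.conjNormal_apply] at h2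
        exact (mul_inv_eq_iff_eq_mul.1 h2).symm }
  have hKQH : ∀ h : ↥H, ∃ (k : A5) (q : O), h = j k * q := by
    intro h
    have hh : (h : G) ∈ K ⊔ O.map H.subtype := hKC.ge h.2
    have hnorm : K ≤ Subgroup.normalizer ((O.map H.subtype : Subgroup G) : Set G) := by
      intro g hg
      rw [Subgroup.mem_normalizer_iff]
      intro x
      refine ⟨?_, ?_⟩
      · rintro ⟨y, hy, rfl⟩
        exact ⟨⟨g, hKH hg⟩ * y * (⟨g, hKH hg⟩ : ↥H)⁻¹, hOn.conj_mem y hy _, rfl⟩
      · rintro ⟨y, hy, hyx⟩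
        refine ⟨(⟨g, hKH hg⟩ : ↥H)⁻¹ * y * ⟨g, hKH hg⟩, by
          simpa using hOn.conj_mem y hy (⟨g, hKH hg⟩ : ↥H)⁻¹, ?_⟩
        show g⁻¹ * H.subtype y * g = x
        rw [hyx]; group
    rw [← SetLike.mem_coe, Subgroup.coe_mul_of_left_le_normalizer_right K _ hnorm] at hh
    obtain ⟨k, hk, _, ⟨q, hq, rfl⟩, he⟩ := hh
    refine ⟨e ⟨k, hk⟩, ⟨q, hq⟩, Subtype.ext ?_⟩
    show (h : G) = ((e.symm (e ⟨k, hk⟩) : K) : G) * (q : G)
    rw [MulEquiv.symm_apply_apply]
    exact he.symm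
  have h1 : Nat.card ↥H = 1920 := by
    have hbij : Function.Bijective (fun p : A5 × O => j p.1 * (p.2 : ↥H)) := by
      refine ⟨fun p p' h => ?_, fun h => ?_⟩
      · have h' : j p.1 * (p.2 : ↥H) = j p'.1 * (p'.2 : ↥H) := h
        have hk : p.1 = p'.1 := by
          refine (inv_mul_eq_one.1 (hdis (p'.1⁻¹ * p.1) ?_)).symm
          rw [map_mul, map_inv, eq_mul_inv_of_mul_eq h', mul_assoc, inv_mul_cancel_left]
          exact O.mul_mem p'.2.2 (O.inv_mem p.2.2)
        rw [hk] at h'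
        exact Prod.ext hk (Subtype.ext (mul_left_cancel h'))
      · obtain ⟨k, q, rfl⟩ := hKQH h
        exact ⟨(k, q), rfl⟩
    rw [← Nat.card_congr (Equiv.ofBijective _ hbij), Nat.card_prod, hQ, Nat.card_eq_fintype_card]
    decide +kernel
  have h2 : Nat.card ↥(Subgroup.centralizer ({t} : Set G)) = 240 := by
    obtain ⟨hVC, hBC, hcomm, hdisj, hsup⟩ := hVB
    have hbij : Function.Bijective (fun p : V × B =>
        (⟨(p.1 : G) * p.2, Subgroup.mul_mem _ (hVC p.1.2) (hBC p.2.2)⟩ :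
          ↥(Subgroup.centralizer ({t} : Set G)))) := by
      refine ⟨fun p p' h => ?_, fun h => ?_⟩
      · have h' : (p.1 : G) * p.2 = p'.1 * p'.2 := congrArg Subtype.val h
        exact Subgroup.mul_injective_of_disjoint (disjoint_iff.2 hdisj) h'
      · have hh : (h : G) ∈ V ⊔ B := hsup.ge h.2
        have hcs : V ≤ Subgroup.centralizer (B : Set G) := fun w hw =>
          Subgroup.mem_centralizer_iff.2 fun b hb => (hcomm w hw b hb).symm
        rw [← SetLike.mem_coe, Subgroup.coe_mul_of_left_le_normalizer_right V B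
          (hcs.trans (Subgroup.centralizer_le_normalizer _))] at hh
        obtain ⟨w, hw, b, hb, he⟩ := hh
        exact ⟨(⟨w, hw⟩, ⟨b, hb⟩), Subtype.ext he⟩
    rw [← Nat.card_congr (Equiv.ofBijective _ hbij), Nat.card_prod, hV,
      Nat.card_congr eB.toEquiv, Nat.card_eq_fintype_card]
    decide +kernel
  have hn1 := count_z hz ht hzt S (hO := hOn) rfl j
    ((Subgroup.inclusion_injective hKH).comp e.symm.injective) (fun k q => rfl) hKQH hdis
    (fun x hx => hQz _ ⟨x, x.2, rfl⟩ hx)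
    (fun h ho hn => hCz _ h.2 ho fun ⟨y, hy, hyh⟩ => hn ((Subtype.ext hyh : y = h) ▸ hy))
  have hn2 := count_t ht hz hzt hVB hV2 htV eB hBz hCt
  rw [Cfsg.Agent.H28.thompson_order_formula hz ht hzt
    (fun x hx => (hcl x hx).imp IsConj.symm IsConj.symm), hn1, hn2, h1, h2]

end Cfsg.Agent.H33.HJ
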